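import Mathlib
import Cfsg.Agent.H67.OdmSym

/-!
# S4785, PART F of L-RES: the field of a group containing a root element for every pair (helper683)

`fields` : `H ≤ GL_ι(F)` with all sign matrices and a nontrivial `x_ij(c)` for all `i ≠ j`: either `H` contains all
elementary matrices, or there is a proper subfield `k` and a diagonal matrix `d` such that the rank one parts of all
transvections of `H` have entries in `k` after conjugation with `d`.
-/

set_option autoImplicit false

namespace Cfsg.Agent.H683.OddM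

open Matrix Cfsg.Agent.H67.Odm

universe u v

variable {ι : Type v} [Fintype ι] [DecidableEq ι] {F : Type u} [Field F] {H : Subgroup (GL ι F)}

/-- `x_ij(c) ∈ H` -/
abbrev XX (H : Subgroup (GL ι F)) (i j : ι) (c : F) : Prop := Mm H (Matrix.transvection i j c)

theorem XX.zero (i j : ι) : XX H i j 0 := by
  rw [XX, Matrix.transvection_zero]; exact Mm.one

theorem XX.add {i j : ι} (hij : i ≠ j) {a b : F} (ha : XX H i j a) (hb : XX H i j b) : XX H i j (a + b) := by
  rw [XX, ← Matrix.transvection_mul_transvection_same i j hij]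
  exact ha.mul hb

theorem XX.neg {i j : ι} (hij : i ≠ j) {a : F} (ha : XX H i j a) : XX H i j (-a) := by
  refine Mm.inv_of ha ?_
  rw [Matrix.transvection_mul_transvection_same i j hij, add_neg_cancel, Matrix.transvection_zero]

/-- the commutator relation -/
theorem XX.comm {i j l : ι} (hij : i ≠ j) (hjl : j ≠ l) (hil : i ≠ l) {a b : F} (ha : XX H i j a)
    (hb : XX H j l b) : XX H i l (a * b) := by
  have h := ((ha.mul hb).mul (ha.neg hij)).mul (hb.neg hjl)
  have e : Matrix.transvection i j a * Matrix.transvection j l b * Matrix.transvection i j (-a) *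
      Matrix.transvection j l (-b) = Matrix.transvection i l (a * b) := by
    have hA : Matrix.single i j a * Matrix.single i j (-a) = (0 : Matrix ι ι F) :=
      Matrix.single_mul_single_of_ne _ _ _ _ hij.symm _
    have hB : Matrix.single j l b * Matrix.single i j (-a) = (0 : Matrix ι ι F) :=
      Matrix.single_mul_single_of_ne _ _ _ _ hil.symm _
    have hC : Matrix.single i l (a * b) * Matrix.single i j (-a) = (0 : Matrix ι ι F) :=
      Matrix.single_mul_single_of_ne _ _ _ _ hil.symm _
    have hD : Matrix.single j l b * Matrix.single j l (-b) = (0 : Matrix ι ι F) :=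
      Matrix.single_mul_single_of_ne _ _ _ _ hjl.symm _
    have hE : Matrix.single i l (a * b) * Matrix.single j l (-b) = (0 : Matrix ι ι F) :=
      Matrix.single_mul_single_of_ne _ _ _ _ hjl.symm _
    have e1 : Matrix.transvection i j a * Matrix.transvection j l b =
        1 + Matrix.single i j a + Matrix.single j l b + Matrix.single i l (a * b) := by
      rw [Matrix.transvection, Matrix.transvection, mul_add, mul_one, add_mul, one_mul,
        Matrix.single_mul_single_same]
      abel
    have e2 : (1 + Matrix.single i j a + Matrix.single j l b + Matrix.single i l (a * b)) * Matrix.transvection i j (-a) =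
        1 + Matrix.single j l b + Matrix.single i l (a * b) := by
      rw [Matrix.transvection, mul_add, mul_one, add_mul, add_mul, add_mul, one_mul, hA, hB, hC]
      have : Matrix.single i j (-a) = - (Matrix.single i j a : Matrix ι ι F) := by
        rw [← Matrix.single_neg]
      rw [this]
      abel
    have e3 : (1 + Matrix.single j l b + Matrix.single i l (a * b)) * Matrix.transvection j l (-b) =
        1 + Matrix.single i l (a * b) := by
      rw [Matrix.transvection, mul_add, mul_one, add_mul, add_mul, one_mul, hD, hE]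
      have : Matrix.single j l (-b) = - (Matrix.single j l b : Matrix ι ι F) := by
        rw [← Matrix.single_neg]
      rw [this]
      abel
    rw [e1, e2, e3, Matrix.transvection]
  rw [XX, ← e]
  exact h

section fin

variable [Finite F] (hall : ∀ i j : ι, i ≠ j → ∃ c : F, c ≠ 0 ∧ XX H i j c)

include hall

theorem exists_left {i j l : ι} (hij : i ≠ j) (hjl : j ≠ l) (hil : i ≠ l) {a c : F} (ha0 : a ≠ 0)
    (ha : XX H i j a) (hc : XX H i l c) : XX H j l (a⁻¹ * c) := by
  obtain ⟨a', ha'0, ha'⟩ := hall j i hij.symm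
  let f : {c : F // XX H i l c} → {c : F // XX H i l c} := fun c =>
    ⟨a * (a' * c.1), ha.comm hij hjl hil (ha'.comm hij.symm hil hjl c.2)⟩
  have hinj : Function.Injective f := by
    intro x y hxy
    have h1 : a * (a' * x.1) = a * (a' * y.1) := congrArg Subtype.val hxy
    exact Subtype.ext (mul_left_cancel₀ ha'0 (mul_left_cancel₀ ha0 h1))
  obtain ⟨x, hx⟩ := (Finite.injective_iff_surjective.1 hinj) ⟨c, hc⟩
  have h1 : a * (a' * x.1) = c := congrArg Subtype.val hx
  rw [← h1, inv_mul_cancel_left₀ ha0]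
  exact ha'.comm hij.symm hil hjl x.2

theorem exists_right {i j l : ι} (hij : i ≠ j) (hjl : j ≠ l) (hil : i ≠ l) {b c : F} (hb0 : b ≠ 0)
    (hb : XX H j l b) (hc : XX H i l c) : XX H i j (c * b⁻¹) := by
  obtain ⟨b', hb'0, hb'⟩ := hall l j hjl.symm
  let f : {c : F // XX H i l c} → {c : F // XX H i l c} := fun c =>
    ⟨c.1 * b' * b, (c.2.comm hil hjl.symm hij hb').comm hij hjl hil hb⟩
  have hinj : Function.Injective f := by
    intro x y hxy
    have h1 : x.1 * b' * b = y.1 * b' * b := congrArg Subtype.val hxy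
    exact Subtype.ext (mul_right_cancel₀ hb'0 (mul_right_cancel₀ hb0 h1))
  obtain ⟨x, hx⟩ := (Finite.injective_iff_surjective.1 hinj) ⟨c, hc⟩
  have h1 : x.1 * b' * b = c := congrArg Subtype.val hx
  rw [← h1, mul_inv_cancel_right₀ hb0]
  exact x.2.comm hil hjl.symm hij hb'

theorem ratio {i j l : ι} (hij : i ≠ j) (hjl : j ≠ l) (hil : i ≠ l) {c c' y : F} (hc0 : c ≠ 0)
    (hc : XX H i l c) (hc' : XX H i l c') (hy : XX H i l y) : XX H i l (c' / c * y) := by
  obtain ⟨b, hb0, hb⟩ := hall j l hjl
  have h1 := exists_right hall hij hjl hil hb0 hb hc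
  have h2 := exists_right hall hij hjl hil hb0 hb hc'
  have h3 := exists_left hall hij hjl hil (mul_ne_zero hc0 (inv_ne_zero hb0)) h1 hy
  have h4 := h2.comm hij hjl hil h3
  have h5 : c' * b⁻¹ * ((c * b⁻¹)⁻¹ * y) = c' / c * y := by field_simp
  rwa [h5] at h4

end fin

/-- the multiplier field -/
def mulField [Finite F] {i j : ι} (hij : i ≠ j) (H : Subgroup (GL ι F)) : Subfield F where
  carrier := {x | ∀ c, XX H i j c → XX H i j (x * c)}
  mul_mem' := by
    intro x y hx hy c hc
    rw [mul_assoc]
    exact hx _ (hy _ hc)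
  one_mem' := by
    intro c hc
    rwa [one_mul]
  add_mem' := by
    intro x y hx hy c hc
    rw [add_mul]
    exact (hx _ hc).add hij (hy _ hc)
  zero_mem' := by
    intro c hc
    rw [zero_mul]
    exact XX.zero i j
  neg_mem' := by
    intro x hx c hc
    rw [neg_mul]
    exact (hx _ hc).neg hij
  inv_mem' := by
    intro x hx c hc
    by_cases hx0 : x = 0
    · rw [hx0, _root_.inv_zero, zero_mul]
      exact XX.zero i j
    let f : {c : F // XX H i j c} → {c : F // XX H i j c} := fun c => ⟨x * c.1, hx _ c.2⟩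
    have hinj : Function.Injective f := by
      intro y z hyz
      exact Subtype.ext (mul_left_cancel₀ hx0 (congrArg Subtype.val hyz))
    obtain ⟨y, hy⟩ := (Finite.injective_iff_surjective.1 hinj) ⟨c, hc⟩
    have h1 : x * y.1 = c := congrArg Subtype.val hy
    rw [← h1, inv_mul_cancel_left₀ hx0]
    exact y.2

/-- **all root subgroups are `d i k (d j)⁻¹`** -/
theorem exists_scale [Finite F] (hcard : 3 ≤ Fintype.card ι)
    (hall : ∀ i j : ι, i ≠ j → ∃ c : F, c ≠ 0 ∧ XX H i j c) :
    ∃ (k : Subfield F) (d : ι → F), (∀ i, d i ≠ 0) ∧ ∀ i j, i ≠ j → ∀ c, XX H i j c ↔ (d i)⁻¹ * c * d j ∈ k := by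
  classical
  obtain ⟨i0, i1, i2, h01, h02, h12⟩ : ∃ i0 i1 i2 : ι, i0 ≠ i1 ∧ i0 ≠ i2 ∧ i1 ≠ i2 :=
    Fintype.two_lt_card_iff.1 (by omega)
  have hthird : ∀ a b : ι, ∃ m : ι, m ≠ a ∧ m ≠ b := by
    intro a b
    by_contra hcon
    push Not at hcon
    rcases eq_or_ne i0 a with h | h
    · have e1 := hcon i1 (by rw [← h]; exact h01.symm)
      have e2 := hcon i2 (by rw [← h]; exact h02.symm)
      exact h12 (e1.trans e2.symm)
    · have e0 := hcon i0 h
      rcases eq_or_ne i1 a with h' | h'
      · have e2 := hcon i2 (by rw [← h']; exact h12.symm)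
        exact h02 (e0.trans e2.symm)
      · exact h01 (e0.trans (hcon i1 h').symm)
  let d : ι → F := fun i => if h : i = i0 then 1 else (hall i i0 h).choose
  have hd0 : d i0 = 1 := dif_pos rfl
  have hd1 : ∀ i, i ≠ i0 → d i ≠ 0 ∧ XX H i i0 (d i) := by
    intro i hi
    have : d i = (hall i i0 hi).choose := dif_neg hi
    rw [this]
    exact (hall i i0 hi).choose_spec
  have hd : ∀ i, d i ≠ 0 := by
    intro i
    by_cases hi : i = i0
    · rw [hi, hd0]; exact one_ne_zero
    · exact (hd1 i hi).1
  let k := mulField h01.symm H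
  have hk : ∀ x, x ∈ k ↔ ∀ c, XX H i1 i0 c → XX H i1 i0 (x * c) := fun x => Iff.rfl
  have hkc : ∀ c c', c ≠ 0 → XX H i1 i0 c → XX H i1 i0 c' → c' / c ∈ k := by
    intro c c' hc0 hc hc'
    rw [hk]
    intro y hy
    exact ratio hall h12 h02.symm h01.symm hc0 hc hc' hy
  -- the column `i0`
  have hP0 : ∀ i, i ≠ i0 → ∀ c, XX H i i0 c ↔ (d i)⁻¹ * c ∈ k := by
    intro i hi c
    by_cases h1 : i = i1
    · subst h1
      constructor
      · intro hc
        have := hkc (d i) c (hd i) (hd1 i hi).2 hc
        rwa [div_eq_inv_mul] at this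
      · intro h
        have := (hk _).1 h _ (hd1 i hi).2
        rwa [mul_right_comm, inv_mul_cancel₀ (hd i), one_mul] at this
    · obtain ⟨e, he0, he⟩ := hall i1 i (Ne.symm h1)
      have hc1 : XX H i1 i0 (e * d i) := he.comm (Ne.symm h1) hi h01.symm (hd1 i hi).2
      have hc10 : e * d i ≠ 0 := mul_ne_zero he0 (hd i)
      constructor
      · intro hc
        have := hkc _ _ hc10 hc1 (he.comm (Ne.symm h1) hi h01.symm hc)
        rwa [mul_div_mul_left _ _ he0, div_eq_inv_mul] at this
      · intro h
        have h2 := (hk _).1 h _ hc1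
        have h3 : (d i)⁻¹ * c * (e * d i) = e * c := by
          have := hd i
          field_simp
        rw [h3] at h2
        have h4 := exists_left hall (Ne.symm h1) hi h01.symm he0 he h2
        rwa [inv_mul_cancel_left₀ he0] at h4
  -- `i, j ≠ i0`
  have hP1 : ∀ i j, i ≠ i0 → j ≠ i0 → i ≠ j → ∀ c, XX H i j c ↔ (d i)⁻¹ * c * d j ∈ k := by
    intro i j hi hj hij c
    rw [mul_assoc, ← hP0 i hi]
    constructor
    · intro hc
      exact hc.comm hij hj hi (hd1 j hj).2
    · intro hc
      have := exists_right hall hij hj hi (hd j) (hd1 j hj).2 hc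
      rwa [mul_inv_cancel_right₀ (hd j)] at this
  refine ⟨k, d, hd, ?_⟩
  intro i j hij c
  by_cases hj : j = i0
  · subst hj
    rw [hd0, mul_one]
    exact hP0 i hij c
  · by_cases hi : i = i0
    · subst hi
      obtain ⟨m, hm0, hmj⟩ := hthird i j
      rw [hd0, inv_one, one_mul]
      have h1 : XX H i j c ↔ XX H m j (d m * c) := by
        constructor
        · intro hc
          exact (hd1 m hm0).2.comm hm0 hij hmj hc
        · intro hc
          have := exists_left hall hm0 hij hmj (hd m) (hd1 m hm0).2 hc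
          rwa [inv_mul_cancel_left₀ (hd m)] at this
      rw [h1, hP1 m j hm0 hj hmj, inv_mul_cancel_left₀ (hd m)]
    · exact hP1 i j hi hj hij c

/-! ### entries of transvections -/

/-- row elements -/
theorem mm_row {i : ι} {ψ : ι → F} (hi : ψ i = 0) (h : ∀ s, s ≠ i → XX H i s (ψ s)) :
    Mm H (1 + Matrix.vecMulVec (Pi.single i 1) ψ) := by
  classical
  have key : ∀ S : Finset ι, i ∉ S → Mm H (1 + Matrix.vecMulVec (Pi.single i 1) (fun s => if s ∈ S then ψ s else 0)) := by
    intro S
    induction S using Finset.induction_on with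
    | empty =>
      intro _
      have : (fun s => if s ∈ (∅ : Finset ι) then ψ s else 0) = (0 : ι → F) := by
        funext s; simp
      rw [this, Matrix.vecMulVec_zero, add_zero]
      exact Mm.one
    | insert a S ha ih =>
      intro hi'
      have hia : i ≠ a := fun h => hi' (by rw [h]; exact Finset.mem_insert_self _ _)
      have hiS : i ∉ S := fun h => hi' (Finset.mem_insert_of_mem h)
      have h1 := (h a hia.symm).mul (ih hiS)
      have e : Matrix.transvection i a (ψ a) *
          (1 + Matrix.vecMulVec (Pi.single i 1) (fun s => if s ∈ S then ψ s else 0)) =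
          1 + Matrix.vecMulVec (Pi.single i 1) (fun s => if s ∈ insert a S then ψ s else 0) := by
        have e1 : (Matrix.single i a (ψ a) : Matrix ι ι F) *ᵥ (Pi.single i 1) = 0 := by
          rw [Matrix.mulVec_single_one]
          ext r
          simp [Matrix.single_apply, hia.symm]
        rw [Matrix.transvection, mul_add, mul_one, add_mul, one_mul, Matrix.mul_vecMulVec, e1, Matrix.zero_vecMulVec,
          add_zero, add_assoc]
        congr 1
        ext r s
        rw [Matrix.add_apply, Matrix.single_apply, Matrix.vecMulVec_apply, Matrix.vecMulVec_apply, Pi.single_apply]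
        by_cases hr : r = i
        · subst hr
          by_cases hs : s = a
          · subst hs
            simp [ha]
          · simp [hs, Ne.symm hs]
        · simp [hr, Ne.symm hr]
      rw [← e]
      exact h1
  have h1 := key (Finset.univ.erase i) (by simp)
  have h2 : (fun s => if s ∈ Finset.univ.erase i then ψ s else 0) = ψ := by
    funext s
    by_cases hs : s = i
    · rw [hs, hi]; simp
    · simp [hs]
  rwa [h2] at h1

/-- conjugation of a transvection -/
theorem mm_conj {g g' : Matrix ι ι F} (hg : Mm H g) (hgg : g * g' = 1) {a φ : ι → F}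
    (ht : Mm H (1 + Matrix.vecMulVec a φ)) : Mm H (1 + Matrix.vecMulVec (g *ᵥ a) (φ ᵥ* g')) := by
  have h1 := (hg.mul ht).mul (hg.inv_of hgg)
  rwa [mul_add, mul_one, add_mul, hgg, Matrix.mul_vecMulVec, Matrix.vecMulVec_mul] at h1

section main

variable [Finite F] {k : Subfield F} {d : ι → F}

theorem two_mem_inv {k : Subfield F} (h2 : (2 : F) ≠ 0) {x : F} (m : ℕ) (h : 2 ^ m * x ∈ k) : x ∈ k := by
  have h1 : (2 : F) ∈ k := ofNat_mem k 2
  have h3 : ((2 : F) ^ m)⁻¹ ∈ k := k.inv_mem (k.pow_mem h1 m)
  have h4 := k.mul_mem h3 h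
  rwa [inv_mul_cancel_left₀ (pow_ne_zero m h2)] at h4

/-- edge rows in terms of `k` -/
theorem row_k (h2 : (2 : F) ≠ 0) (hE : HasE H) (hcard : Fintype.card ι = 3 ∨ 5 ≤ Fintype.card ι)
    (hd : ∀ i, d i ≠ 0) (hP : ∀ i j, i ≠ j → ∀ c, XX H i j c ↔ (d i)⁻¹ * c * d j ∈ k)
    {a φ : ι → F} (ht : Mm H (1 + Matrix.vecMulVec a φ)) (hφa : φ ⬝ᵥ a = 0) {i j l : ι} (hij : i ≠ j)
    (ha : a j ≠ 0) (hφ : φ i ≠ 0) (hlj : l ≠ j) : φ l * d l / (φ i * d i) ∈ k := by
  by_cases hli : l = i
  · subst hli
    rw [div_self (mul_ne_zero hφ (hd l))]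
    exact k.one_mem
  have hx : XX H i j (d i * (d j)⁻¹) := by
    rw [hP i j hij]
    have : (d i)⁻¹ * (d i * (d j)⁻¹) * d j = 1 := by
      have := hd i
      have := hd j
      field_simp
    rw [this]
    exact k.one_mem
  obtain ⟨m, hm⟩ := edge_row h2 hE hcard hij (mul_ne_zero (hd i) (inv_ne_zero (hd j))) hx ht hφa ha hφ hli hlj
  have h3 := (hP i l (Ne.symm hli) _).1 hm
  have h4 : (d i)⁻¹ * (2 ^ m * (-2 * ((φ i)⁻¹ * φ l))) * d l = 2 ^ (m + 1) * (-(φ l * d l / (φ i * d i))) := by
    have := hd i
    field_simp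
    ring
  rw [h4] at h3
  have h5 := k.neg_mem (two_mem_inv h2 _ h3)
  rwa [neg_neg] at h5

/-- **the functional is `k`-proportional** -/
theorem prop_k (h2 : (2 : F) ≠ 0) (hE : HasE H) (hcard : Fintype.card ι = 3 ∨ 5 ≤ Fintype.card ι)
    (hd : ∀ i, d i ≠ 0) (hP : ∀ i j, i ≠ j → ∀ c, XX H i j c ↔ (d i)⁻¹ * c * d j ∈ k)
    {a φ : ι → F} (ht : Mm H (1 + Matrix.vecMulVec a φ)) (hφa : φ ⬝ᵥ a = 0) (ha : a ≠ 0) {i : ι}
    (hφ : φ i ≠ 0) (l : ι) : φ l * d l / (φ i * d i) ∈ k := by
  classical
  have R : ∀ {i j l : ι}, i ≠ j → a j ≠ 0 → φ i ≠ 0 → l ≠ j → φ l * d l / (φ i * d i) ∈ k :=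
    fun hij ha hφ hlj => row_k h2 hE hcard hd hP ht hφa hij ha hφ hlj
  have hz : ∀ {l i : ι}, φ l = 0 → φ l * d l / (φ i * d i) ∈ k := by
    intro l i h
    rw [h, zero_mul, zero_div]
    exact k.zero_mem
  by_cases h1 : ∃ j, a j ≠ 0 ∧ φ j = 0
  · obtain ⟨j, hj, hφj⟩ := h1
    have hij : i ≠ j := by rintro rfl; exact hφ hφj
    by_cases hlj : l = j
    · rw [hlj]; exact hz hφj
    · exact R hij hj hφ hlj
  push Not at h1
  obtain ⟨j, hj⟩ : ∃ j, a j ≠ 0 := Function.ne_iff.1 ha
  have hφj := h1 j hj
  obtain ⟨j', hj'j, hj'⟩ : ∃ j', j' ≠ j ∧ a j' ≠ 0 := by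
    by_contra hcon
    push Not at hcon
    have h3 : φ ⬝ᵥ a = φ j * a j := by
      rw [dotProduct, Finset.sum_eq_single j]
      · intro b _ hb
        rw [hcon b hb, mul_zero]
      · intro h; exact absurd (Finset.mem_univ j) h
    rw [h3] at hφa
    rcases mul_eq_zero.1 hφa with h4 | h4
    · exact hφj h4
    · exact hj h4
  have hφj' := h1 j' hj'
  -- it suffices to connect everything with `φ j`
  suffices hs : ∀ l, φ l * d l / (φ j * d j) ∈ k by
    have e1 := hs l
    have e2 := k.inv_mem (hs i)
    have e3 := k.mul_mem e1 e2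
    have e4 : φ l * d l / (φ j * d j) * (φ i * d i / (φ j * d j))⁻¹ = φ l * d l / (φ i * d i) := by
      have := hd i
      have := hd j
      field_simp
    rwa [e4] at e3
  -- `φ j' / φ j ∈ k`
  have hjj : φ j' * d j' / (φ j * d j) ∈ k := by
    obtain ⟨m, hm, hm'⟩ : ∃ m, m ≠ j ∧ m ≠ j' := by
      have h3 : 2 < Fintype.card ι := by omega
      by_contra hcon
      push Not at hcon
      have h6 : (Finset.univ : Finset ι) ⊆ {j, j'} := fun x _ => by
        by_cases hx : x = j
        · simp [hx]
        · simp [hcon x hx]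
      have h7 := Finset.card_le_card h6
      have h8 : Finset.card ({j, j'} : Finset ι) ≤ 2 := Finset.card_le_two
      rw [Finset.card_univ] at h7
      omega
    have key : ∀ φ' : ι → F, Mm H (1 + Matrix.vecMulVec a φ') → φ' ⬝ᵥ a = 0 → φ' j = φ j → φ' j' = φ j' → φ' m ≠ 0 →
        φ j' * d j' / (φ j * d j) ∈ k := by
      intro φ' ht' hφ'a ej ej' em
      have r1 := row_k h2 hE hcard hd hP ht' hφ'a hm' hj' em (Ne.symm hj'j)
      have r2 := row_k h2 hE hcard hd hP ht' hφ'a hm hj em hj'j
      rw [ej] at r1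
      rw [ej'] at r2
      have e3 := k.mul_mem r2 (k.inv_mem r1)
      have e4 : φ j' * d j' / (φ' m * d m) * (φ j * d j / (φ' m * d m))⁻¹ = φ j' * d j' / (φ j * d j) := by
        have := hd m
        have := hd j
        field_simp
      rwa [e4] at e3
    by_cases hφm : φ m = 0
    · by_cases ham : a m = 0
      · -- conjugate by `x_{jm}`
        set c : F := d j * (d m)⁻¹ with hc
        have hx : XX H j m c := by
          rw [hP j m (Ne.symm hm)]
          have : (d j)⁻¹ * c * d m = 1 := by
            rw [hc]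
            have := hd j
            have := hd m
            field_simp
          rw [this]
          exact k.one_mem
        have hgg : Matrix.transvection j m c * Matrix.transvection j m (-c) = 1 := by
          rw [Matrix.transvection_mul_transvection_same _ _ (Ne.symm hm), add_neg_cancel, Matrix.transvection_zero]
        have h3 := mm_conj hx hgg ht
        have e1 : Matrix.transvection j m c *ᵥ a = a := by
          rw [Matrix.transvection, Matrix.add_mulVec, Matrix.one_mulVec]
          have : (Matrix.single j m c : Matrix ι ι F) *ᵥ a = 0 := by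
            ext r
            simp only [Matrix.mulVec, dotProduct, Matrix.single_apply, Pi.zero_apply]
            refine Finset.sum_eq_zero fun s _ => ?_
            by_cases hs : m = s
            · rw [← hs, ham, mul_zero]
            · simp [hs]
          rw [this, add_zero]
        have e2 : ∀ s, (φ ᵥ* Matrix.transvection j m (-c)) s = φ s + if s = m then - (c * φ j) else 0 := by
          intro s
          rw [Matrix.transvection, Matrix.vecMul_add, Matrix.vecMul_one, Pi.add_apply]
          congr 1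
          simp only [Matrix.vecMul, dotProduct, Matrix.single_apply]
          rw [Finset.sum_eq_single j]
          · by_cases hs : s = m
            · subst hs
              simp [mul_comm]
            · simp [hs, Ne.symm hs]
          · intro b _ hb
            simp [Ne.symm hb]
          · intro h; exact absurd (Finset.mem_univ j) h
        rw [e1] at h3
        refine key _ h3 ?_ ?_ ?_ ?_
        · rw [dotProduct]
          have : ∀ s, (φ ᵥ* Matrix.transvection j m (-c)) s * a s = φ s * a s := by
            intro s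
            rw [e2]
            by_cases hs : s = m
            · rw [hs, ham, mul_zero, mul_zero]
            · rw [if_neg hs, add_zero]
          rw [Finset.sum_congr rfl fun s _ => this s]
          exact hφa
        · rw [e2, if_neg (Ne.symm hm), add_zero]
        · rw [e2, if_neg (Ne.symm hm'), add_zero]
        · rw [e2, if_pos rfl, hφm, zero_add]
          exact neg_ne_zero.2 (mul_ne_zero (mul_ne_zero (hd j) (inv_ne_zero (hd m))) hφj)
      · exact absurd hφm (h1 m ham)
    · exact key φ ht hφa rfl rfl hφm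
  intro l
  by_cases hl : l = j
  · rw [hl, div_self (mul_ne_zero hφj (hd j))]
    exact k.one_mem
  by_cases hl' : l = j'
  · rw [hl']; exact hjj
  by_cases hφl : φ l = 0
  · exact hz hφl
  · exact R hj'j.symm hj' hφj hl'

/-- **entries of transvections of `H`** -/
theorem entry_k (h2 : (2 : F) ≠ 0) (hE : HasE H) (hcard : Fintype.card ι = 3 ∨ 5 ≤ Fintype.card ι)
    (hd : ∀ i, d i ≠ 0) (hP : ∀ i j, i ≠ j → ∀ c, XX H i j c ↔ (d i)⁻¹ * c * d j ∈ k)
    {a φ : ι → F} (ht : Mm H (1 + Matrix.vecMulVec a φ)) (hφa : φ ⬝ᵥ a = 0) (r s : ι) :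
    (d r)⁻¹ * a r * φ s * d s ∈ k := by
  classical
  by_cases ha : a = 0
  · rw [ha, Pi.zero_apply, mul_zero, zero_mul, zero_mul]
    exact k.zero_mem
  by_cases hφ0 : φ = 0
  · rw [hφ0, Pi.zero_apply, mul_zero, zero_mul]
    exact k.zero_mem
  obtain ⟨i, hφ⟩ : ∃ i, φ i ≠ 0 := Function.ne_iff.1 hφ0
  have hprop := prop_k h2 hE hcard hd hP ht hφa ha hφ
  -- make `φ` supported at `i`
  let ψ : ι → F := fun s => if s = i then 0 else φ s / φ i
  have hψi : ψ i = 0 := if_pos rfl
  have hψ : ∀ s, s ≠ i → ψ s = φ s / φ i := fun s hs => if_neg hs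
  have hψX : ∀ s, s ≠ i → XX H i s (ψ s) := by
    intro s hs
    rw [hP i s (Ne.symm hs), hψ s hs]
    have h3 := hprop s
    have h4 : φ s * d s / (φ i * d i) = (d i)⁻¹ * (φ s / φ i) * d s := by
      have := hd i
      field_simp
    rwa [h4] at h3
  have hg := mm_row hψi hψX
  have hgg : (1 + Matrix.vecMulVec (Pi.single i 1) ψ) * (1 + Matrix.vecMulVec (Pi.single i 1) (-ψ)) =
      (1 : Matrix ι ι F) := by
    have e1 : ψ ⬝ᵥ (Pi.single i 1 : ι → F) = 0 := by rw [dotProduct_single, hψi, zero_mul]
    have e2 : Matrix.vecMulVec (Pi.single i 1) ψ * Matrix.vecMulVec (Pi.single i 1) (-ψ) = (0 : Matrix ι ι F) := by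
      rw [Matrix.vecMulVec_mul_vecMulVec, e1, zero_smul, Matrix.vecMulVec_zero]
    rw [mul_add, mul_one, add_mul, one_mul, e2, add_zero, Matrix.vecMulVec_neg, add_assoc, add_neg_cancel, add_zero]
  have h3 := mm_conj hg hgg ht
  have eφ : φ ᵥ* (1 + Matrix.vecMulVec (Pi.single i 1) (-ψ)) = Pi.single i (φ i) := by
    rw [Matrix.vecMul_add, Matrix.vecMul_one, Matrix.vecMul_vecMulVec, dotProduct_single, mul_one]
    ext s
    rw [Pi.add_apply, Pi.smul_apply, Pi.neg_apply, smul_eq_mul]
    by_cases hs : s = i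
    · subst hs
      rw [hψi, Pi.single_eq_same, neg_zero, mul_zero, add_zero]
    · rw [hψ s hs, Pi.single_eq_of_ne hs]
      field_simp
      ring
  set a' : ι → F := (1 + Matrix.vecMulVec (Pi.single i 1) ψ) *ᵥ a with ha'
  have ea : ∀ r, r ≠ i → a' r = a r := by
    intro r hr
    rw [ha', Matrix.add_mulVec, Matrix.one_mulVec, Pi.add_apply]
    have : (Matrix.vecMulVec (Pi.single i 1) ψ *ᵥ a) r = 0 := by
      simp [Matrix.mulVec, dotProduct, Matrix.vecMulVec_apply, Pi.single_eq_of_ne hr]
    rw [this, add_zero]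
  have eai : a' i = 0 := by
    rw [ha', Matrix.add_mulVec, Matrix.one_mulVec, Pi.add_apply]
    have e1 : (Matrix.vecMulVec (Pi.single i 1) ψ *ᵥ a) i = ∑ s, ψ s * a s := by
      simp [Matrix.mulVec, dotProduct, Matrix.vecMulVec_apply]
    rw [e1]
    have e2 : φ i * (a i + ∑ s, ψ s * a s) = φ ⬝ᵥ a := by
      rw [mul_add, Finset.mul_sum, dotProduct, ← Finset.add_sum_erase _ _ (Finset.mem_univ i),
        ← Finset.add_sum_erase Finset.univ (fun s => φ s * a s) (Finset.mem_univ i), hψi, zero_mul, mul_zero, zero_add]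
      congr 1
      refine Finset.sum_congr rfl fun s hs => ?_
      rw [hψ s (Finset.ne_of_mem_erase hs)]
      field_simp
    rw [hφa] at e2
    exact (mul_eq_zero.1 e2).resolve_left hφ
  rw [eφ] at h3
  -- isolate
  obtain ⟨j0, hj0⟩ : ∃ j0, j0 ≠ i := by
    have h4 : 1 < Fintype.card ι := by omega
    exact Fintype.exists_ne_of_one_lt_card h4 i
  have hcol : ∀ r, r ≠ i → (d r)⁻¹ * (a r * φ i) * d i ∈ k := by
    intro r hr
    obtain ⟨m, hmi, hmr⟩ : ∃ m, m ≠ i ∧ m ≠ r := by
      by_contra hcon
      push Not at hcon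
      have h6 : (Finset.univ : Finset ι) ⊆ {i, r} := fun x _ => by
        by_cases hx : x = i
        · simp [hx]
        · simp [hcon x hx]
      have h7 := Finset.card_le_card h6
      have h8 : Finset.card ({i, r} : Finset ι) ≤ 2 := Finset.card_le_two
      rw [Finset.card_univ] at h7
      omega
    have hSp : Sp m i (Matrix.vecMulVec a' (Pi.single i (φ i))) := by
      intro x y hxy
      rw [Matrix.vecMulVec_apply] at hxy
      right
      constructor
      · by_contra hy
        rw [Pi.single_eq_of_ne hy, mul_zero] at hxy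
        exact hxy rfl
      · rintro rfl
        rw [eai, zero_mul] at hxy
        exact hxy rfl
    obtain ⟨e, he⟩ := isoT hE hcard hmi (Ne.symm hmr) hr hSp h3
    rw [Matrix.vecMulVec_apply, Pi.single_eq_same, ea r hr] at he
    have h4 := (hP r i hr _).1 he
    have h5 : (d r)⁻¹ * (2 ^ e * (a r * φ i)) * d i = 2 ^ e * ((d r)⁻¹ * (a r * φ i) * d i) := by ring
    rw [h5] at h4
    exact two_mem_inv h2 _ h4
  have hcoli : (d i)⁻¹ * (a i * φ i) * d i ∈ k := by
    have h4 : (d i)⁻¹ * (a i * φ i) * d i = a i * φ i := by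
      have := hd i
      field_simp
    have h5 : a i * φ i = - ∑ s ∈ Finset.univ.erase i, φ s * a s := by
      have h6 := hφa
      rw [dotProduct, ← Finset.add_sum_erase _ _ (Finset.mem_univ i)] at h6
      linear_combination h6
    rw [h4, h5]
    refine k.neg_mem (k.sum_mem fun s hs => ?_)
    have h6 := k.mul_mem (hcol s (Finset.ne_of_mem_erase hs)) (hprop s)
    have h7 : (d s)⁻¹ * (a s * φ i) * d i * (φ s * d s / (φ i * d i)) = φ s * a s := by
      have := hd i
      have := hd s
      field_simp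
    rwa [h7] at h6
  have hr : (d r)⁻¹ * (a r * φ i) * d i ∈ k := by
    by_cases hri : r = i
    · rw [hri]; exact hcoli
    · exact hcol r hri
  have h6 := k.mul_mem hr (hprop s)
  have h7 : (d r)⁻¹ * (a r * φ i) * d i * (φ s * d s / (φ i * d i)) = (d r)⁻¹ * a r * φ s * d s := by
    have := hd i
    field_simp
  rwa [h7] at h6

/-- **PART F.** -/
theorem fields (h2 : (2 : F) ≠ 0) (hE : HasE H) (hcard : Fintype.card ι = 3 ∨ 5 ≤ Fintype.card ι)
    (hall : ∀ i j : ι, i ≠ j → ∃ c : F, c ≠ 0 ∧ Mm H (Matrix.transvection i j c)) :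
    (∀ i j, i ≠ j → ∀ c : F, Mm H (Matrix.transvection i j c)) ∨
    ∃ k : Subfield F, k ≠ ⊤ ∧ ∃ d : ι → F, (∀ i, d i ≠ 0) ∧
      ∀ a φ : ι → F, φ ⬝ᵥ a = 0 → Mm H (1 + Matrix.vecMulVec a φ) → ∀ r s, (d r)⁻¹ * a r * φ s * d s ∈ k := by
  obtain ⟨k, d, hd, hP⟩ := exists_scale (H := H) (by omega) hall
  by_cases hk : k = ⊤
  · left
    intro i j hij c
    rw [← XX, hP i j hij, hk]
    exact Subfield.mem_top _
  · right
    exact ⟨k, hk, d, hd, fun a φ hφa ht r s => entry_k h2 hE hcard hd hP ht hφa r s⟩

end main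

end Cfsg.Agent.H683.OddM
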