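import Mathlib
import Cfsg.Prelude.Def_GeometricClasses
import Cfsg.Agent.H304.PslTransfer
import Cfsg.Agent.H453.OddM.Defs
import Cfsg.Agent.H920.CsData

/-!
# S4785: transvections and elements `(J_3, 1^(n-3))` of `SL_n(q)`, `q` odd (helper683)

They are real in `PSL_n(q)`, `n ≥ 3`. Transvections do not lie in the members of the classes 2 (monomial), 3, 6, 8
(orthogonal); `(J_3, 1^(n-3))` does not lie in symplectic similarity groups.
-/

set_option autoImplicit false

namespace Cfsg.Agent.H683.OddM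

open Matrix Cfsg Cfsg.Geo Cfsg.Agent.H304.PslT Cfsg.Agent.H453.OddM

variable {F : Type*} [Field F] {n : ℕ}

/-- `t` is a transvection -/
def IsTv (t : GL (Fin n) F) : Prop :=
  ∃ (a : Fin n → F) (φ : (Fin n → F) →ₗ[F] F), a ≠ 0 ∧ φ ≠ 0 ∧ φ a = 0 ∧
    ∀ v, (t : Matrix (Fin n) (Fin n) F) *ᵥ v = v + φ v • a

/-- `x = 1 + N`, `N³ = 0`, `N²` of rank one -/
def IsJ (x : GL (Fin n) F) : Prop :=
  ∃ (N : (Fin n → F) →ₗ[F] (Fin n → F)) (u : Fin n → F) (φ : (Fin n → F) →ₗ[F] F), u ≠ 0 ∧ φ ≠ 0 ∧ N u = 0 ∧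
    (∀ v, N (N v) = φ v • u) ∧ ∀ v, (x : Matrix (Fin n) (Fin n) F) *ᵥ v = v + N v

/-! ### conjugation -/

theorem conj_mulVec (h x : GL (Fin n) F) (v : Fin n → F) :
    ((h * x * h⁻¹ : GL (Fin n) F) : Matrix (Fin n) (Fin n) F) *ᵥ v =
      (h : Matrix (Fin n) (Fin n) F) *ᵥ ((x : Matrix (Fin n) (Fin n) F) *ᵥ
        (((h⁻¹ : GL (Fin n) F) : Matrix (Fin n) (Fin n) F) *ᵥ v)) := by
  rw [Matrix.mulVec_mulVec, Matrix.mulVec_mulVec, Units.val_mul, Units.val_mul, Matrix.mul_assoc]

theorem mulVec_inv (h : GL (Fin n) F) (v : Fin n → F) :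
    (h : Matrix (Fin n) (Fin n) F) *ᵥ (((h⁻¹ : GL (Fin n) F) : Matrix (Fin n) (Fin n) F) *ᵥ v) = v := by
  rw [Matrix.mulVec_mulVec, ← Units.val_mul, mul_inv_cancel, Units.val_one, Matrix.one_mulVec]

theorem inv_mulVec (h : GL (Fin n) F) (v : Fin n → F) :
    ((h⁻¹ : GL (Fin n) F) : Matrix (Fin n) (Fin n) F) *ᵥ ((h : Matrix (Fin n) (Fin n) F) *ᵥ v) = v := by
  rw [Matrix.mulVec_mulVec, ← Units.val_mul, inv_mul_cancel, Units.val_one, Matrix.one_mulVec]

theorem IsTv.conj {t : GL (Fin n) F} (ht : IsTv t) (h : GL (Fin n) F) : IsTv (h * t * h⁻¹) := by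
  obtain ⟨a, φ, ha, hφ, hφa, ht⟩ := ht
  refine ⟨(h : Matrix (Fin n) (Fin n) F) *ᵥ a,
    φ.comp (Matrix.toLin' (((h⁻¹ : GL (Fin n) F) : Matrix (Fin n) (Fin n) F))), ?_, ?_, ?_, ?_⟩
  · intro h0
    apply ha
    rw [← inv_mulVec h a, h0, Matrix.mulVec_zero]
  · intro h0
    apply hφ
    refine LinearMap.ext fun v => ?_
    have := congrArg (fun ψ : (Fin n → F) →ₗ[F] F => ψ ((h : Matrix (Fin n) (Fin n) F) *ᵥ v)) h0
    simp only [LinearMap.comp_apply, Matrix.toLin'_apply, LinearMap.zero_apply] at this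
    rwa [inv_mulVec] at this
  · rw [LinearMap.comp_apply, Matrix.toLin'_apply, inv_mulVec, hφa]
  · intro v
    rw [conj_mulVec, ht, Matrix.mulVec_add, mulVec_inv, Matrix.mulVec_smul, LinearMap.comp_apply,
      Matrix.toLin'_apply]

theorem IsJ.conj {t : GL (Fin n) F} (ht : IsJ t) (h : GL (Fin n) F) : IsJ (h * t * h⁻¹) := by
  obtain ⟨N, u, φ, hu, hφ, hNu, hN, ht⟩ := ht
  refine ⟨(Matrix.toLin' (h : Matrix (Fin n) (Fin n) F)).comp (N.comp
      (Matrix.toLin' (((h⁻¹ : GL (Fin n) F) : Matrix (Fin n) (Fin n) F)))), (h : Matrix (Fin n) (Fin n) F) *ᵥ u,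
    φ.comp (Matrix.toLin' (((h⁻¹ : GL (Fin n) F) : Matrix (Fin n) (Fin n) F))), ?_, ?_, ?_, ?_, ?_⟩
  · intro h0
    apply hu
    rw [← inv_mulVec h u, h0, Matrix.mulVec_zero]
  · intro h0
    apply hφ
    refine LinearMap.ext fun v => ?_
    have := congrArg (fun ψ : (Fin n → F) →ₗ[F] F => ψ ((h : Matrix (Fin n) (Fin n) F) *ᵥ v)) h0
    simp only [LinearMap.comp_apply, Matrix.toLin'_apply, LinearMap.zero_apply] at this
    rwa [inv_mulVec] at this
  · simp only [LinearMap.comp_apply, Matrix.toLin'_apply]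
    rw [inv_mulVec, hNu, Matrix.mulVec_zero]
  · intro v
    simp only [LinearMap.comp_apply, Matrix.toLin'_apply]
    rw [inv_mulVec, hN, Matrix.mulVec_smul]
  · intro v
    rw [conj_mulVec, ht, Matrix.mulVec_add, mulVec_inv]
    rfl

/-! ### the classes -/

theorem bil_zero_right {f : (Fin n → F) → (Fin n → F) → F} (hb : IsBilinearForm f) (v : Fin n → F) : f v 0 = 0 := by
  have := hb.smul_right 0 v 0
  rwa [zero_smul, zero_mul] at this

theorem mult_one {f : (Fin n → F) → (Fin n → F) → F} (hb : IsBilinearForm f) (hnd : IsNondegenerateForm f)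
    {c : F} {N : (Fin n → F) →ₗ[F] (Fin n → F)} (h : ∀ v w, f (v + N v) (w + N w) = c * f v w)
    (h3 : ∀ v, N (N (N v)) = 0) {v0 : Fin n → F} (h0 : v0 ≠ 0) (hv0 : N v0 = 0) : c = 1 := by
  obtain ⟨w, hw⟩ := (hnd v0 h0).2
  have key : ∀ w, f v0 (N w) = (c - 1) * f v0 w := by
    intro w
    have h1 := h v0 w
    rw [hv0, add_zero, hb.add_right] at h1
    linear_combination h1
  have h4 : (c - 1) * ((c - 1) * ((c - 1) * f v0 w)) = 0 := by
    rw [← key, ← key, ← key, h3, bil_zero_right hb]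
  have h5 : c - 1 = 0 := by
    rcases mul_eq_zero.1 h4 with h | h
    · exact h
    rcases mul_eq_zero.1 h with h | h
    · exact h
    rcases mul_eq_zero.1 h with h | h
    · exact h
    · exact absurd h hw
  exact sub_eq_zero.1 h5

/-- class 8, quadratic forms -/
theorem IsTv.not_quad {t : GL (Fin n) F} (ht : IsTv t) (h2 : (2 : F) ≠ 0) {Q : (Fin n → F) → F}
    (hQ : IsNondegenerateQuadraticForm Q) (h : t ∈ quadSimilarityGroup Q) : False := by
  obtain ⟨a, φ, ha, hφ, hφa, ht⟩ := ht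
  obtain ⟨c, hc⟩ := h
  set f := QuadraticMap.polar Q with hf
  have hb : IsBilinearForm f := hQ.polar_bilinear
  have hsym : ∀ v w, f v w = f w v := fun v w => QuadraticMap.polar_comm Q v w
  let N : (Fin n → F) →ₗ[F] (Fin n → F) := LinearMap.smulRight φ a
  have hN : ∀ v, N v = φ v • a := fun v => LinearMap.smulRight_apply ..
  have hfc : ∀ v w, f (v + N v) (w + N w) = c * f v w := by
    intro v w
    rw [hN, hN, ← ht, ← ht, hf]
    simp only [QuadraticMap.polar]
    rw [← Matrix.mulVec_add, hc, hc, hc]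
    ring
  have hNN : ∀ v, N (N v) = 0 := by
    intro v
    rw [hN (N v), hN v, map_smul, hφa, smul_zero, zero_smul]
  have hc1 : (c : F) = 1 := mult_one hb hQ.nondegenerate hfc (fun v => by rw [hNN (N v)]) ha
    (by rw [hN, hφa, zero_smul])
  rw [hc1] at hfc
  have key : ∀ v w, φ w * f v a + φ v * f a w + φ v * φ w * f a a = 0 := by
    intro v w
    have h1 := hfc v w
    rw [hN, hN, hb.add_left, hb.add_right, hb.add_right, hb.smul_left, hb.smul_left, hb.smul_right,
      hb.smul_right] at h1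
    linear_combination h1
  obtain ⟨v, hv⟩ : ∃ v, φ v ≠ 0 := by
    by_contra hcon
    push Not at hcon
    exact hφ (LinearMap.ext hcon)
  have haa : f a a = 0 := by
    have h1 := key v a
    rw [hφa] at h1
    have h3 : φ v * f a a = 0 := by linear_combination h1
    exact (mul_eq_zero.1 h3).resolve_left hv
  obtain ⟨x, hx⟩ := (hQ.nondegenerate a ha).2
  apply hx
  change f a x = 0
  by_cases hφx : φ x = 0
  · have h1 := key v x
    rw [hφx] at h1
    have h3 : φ v * f a x = 0 := by linear_combination h1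
    exact (mul_eq_zero.1 h3).resolve_left hv
  · have h1 := key x x
    rw [haa, hsym x a] at h1
    have h3 : (2 * φ x) * f a x = 0 := by linear_combination h1
    exact (mul_eq_zero.1 h3).resolve_left (mul_ne_zero h2 hφx)

/-- class 8, symplectic forms -/
theorem IsJ.not_symp {t : GL (Fin n) F} (ht : IsJ t) {f : (Fin n → F) → (Fin n → F) → F}
    (hf : IsSymplecticForm f) (h : t ∈ similarityGroup f) : False := by
  obtain ⟨N, u, φ, hu, hφ, hNu, hN, ht⟩ := ht
  obtain ⟨c, hc⟩ := h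
  have hb := hf.bilinear
  have hfc : ∀ v w, f (v + N v) (w + N w) = c * f v w := by
    intro v w
    rw [← ht, ← ht]; exact hc v w
  have h3 : ∀ v, N (N (N v)) = 0 := by
    intro v
    rw [hN v, map_smul, hNu, smul_zero]
  have hc1 : (c : F) = 1 := mult_one hb hf.nondegenerate hfc h3 hu hNu
  rw [hc1] at hfc
  have k1 : ∀ v w, f (N (N v)) (N w) = 0 := by
    intro v w
    have h1 := hfc (N (N v)) w
    rw [h3, add_zero, hb.add_right] at h1
    linear_combination h1
  have k2 : ∀ v w, f (N (N v)) w = - f (N v) (N w) := by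
    intro v w
    have h1 := hfc (N v) w
    rw [hb.add_left, hb.add_right, hb.add_right, k1] at h1
    linear_combination h1
  have k3 : ∀ v, f (N (N v)) v = 0 := by
    intro v
    have h1 := k2 v v
    rw [hf.alternating, neg_zero] at h1
    exact h1
  have k4 : ∀ v w, φ v * f u w = - (φ w * f u v) := by
    intro v w
    have h1 := k3 (v + w)
    rw [map_add, map_add, hb.add_left, hb.add_right, hb.add_right, k3, k3, hN, hN, hb.smul_left, hb.smul_left] at h1
    linear_combination h1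
  have k5 : ∀ v, φ v * f u v = 0 := by
    intro v
    have h1 := k3 v
    rwa [hN, hb.smul_left] at h1
  obtain ⟨v, hv⟩ : ∃ v, φ v ≠ 0 := by
    by_contra hcon
    push Not at hcon
    exact hφ (LinearMap.ext hcon)
  obtain ⟨x, hx⟩ := (hf.nondegenerate u hu).2
  have h4 : f u v = 0 := (mul_eq_zero.1 (k5 v)).resolve_left hv
  have h5 := k4 v x
  rw [h4, mul_zero, neg_zero] at h5
  exact hx ((mul_eq_zero.1 h5).resolve_left hv)

/-- class 3 -/
theorem IsTv.not_ext {t : GL (Fin n) F} (ht : IsTv t) (hn : 3 ≤ n) {r : ℕ} (hr : r.Prime)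
    {K : Subalgebra F (Matrix (Fin n) (Fin n) F)} (hK : IsFieldSubalgebra r K) (h : t ∈ subalgebraNormalizer K) :
    False := by
  obtain ⟨a, φ, ha, hφ, hφa, ht⟩ := ht
  -- every nonzero element of `K` is injective
  have hinj : ∀ k ∈ K, k ≠ 0 → ∀ v, k *ᵥ v = 0 → v = 0 := by
    intro k hk hk0 v hv
    obtain ⟨y, hy, hky⟩ := hK.inv k hk hk0
    have h1 : y * k = 1 := by rw [← hK.comm k hk y hy, hky]
    calc v = (y * k) *ᵥ v := by rw [h1, Matrix.one_mulVec]
      _ = 0 := by rw [← Matrix.mulVec_mulVec, hv, Matrix.mulVec_zero]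
  -- `t` commutes with `K`
  have hcomm : ∀ k ∈ K, ∀ v, φ (k *ᵥ v) • a = φ v • (k *ᵥ a) := by
    intro k hk v
    set k' : Matrix (Fin n) (Fin n) F := (t : Matrix (Fin n) (Fin n) F) * k * ((t⁻¹ : GL (Fin n) F) : Matrix (Fin n) (Fin n) F)
      with hk'
    have hk'K : k' ∈ K := (h k).1 hk
    have e1 : ∀ v, (t : Matrix (Fin n) (Fin n) F) *ᵥ (k *ᵥ v) = k' *ᵥ ((t : Matrix (Fin n) (Fin n) F) *ᵥ v) := by
      intro v
      rw [hk', ← Matrix.mulVec_mulVec, ← Matrix.mulVec_mulVec, inv_mulVec]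
    have e2 : ∀ v, (k - k') *ᵥ v = φ v • (k' *ᵥ a) - φ (k *ᵥ v) • a := by
      intro v
      have := e1 v
      rw [ht, ht, Matrix.mulVec_add, Matrix.mulVec_smul] at this
      rw [Matrix.sub_mulVec]
      linear_combination (exp := 1) this
    have e3 : k = k' := by
      by_contra hne
      have h0 : k - k' ≠ 0 := sub_ne_zero.2 hne
      have hi := hinj (k - k') (K.sub_mem hk hk'K) h0
      have hsub : LinearMap.range (Matrix.toLin' (k - k')) ≤ Submodule.span F {k' *ᵥ a, a} := by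
        rintro _ ⟨v, rfl⟩
        rw [Matrix.toLin'_apply, e2]
        exact Submodule.sub_mem _ (Submodule.smul_mem _ _ (Submodule.subset_span (by simp)))
          (Submodule.smul_mem _ _ (Submodule.subset_span (by simp)))
      have hker : LinearMap.ker (Matrix.toLin' (k - k')) = ⊥ := by
        rw [LinearMap.ker_eq_bot']
        intro v hv
        exact hi v (by rwa [Matrix.toLin'_apply] at hv)
      have h5 := LinearMap.finrank_range_of_inj (LinearMap.ker_eq_bot.1 hker)
      have h6 := Submodule.finrank_mono hsub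
      have h7 : Module.finrank F (Submodule.span F ({k' *ᵥ a, a} : Set (Fin n → F))) ≤ 2 := by
        classical
        have := finrank_span_finset_le_card (R := F) ({k' *ᵥ a, a} : Finset (Fin n → F))
        have h8 := this.trans Finset.card_le_two
        rwa [Finset.coe_insert, Finset.coe_singleton] at h8
      rw [h5, Module.finrank_fintype_fun_eq_card, Fintype.card_fin] at h6
      omega
    have := e2 v
    rw [← e3, sub_self, Matrix.zero_mulVec] at this
    exact (sub_eq_zero.1 this.symm).symm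
  obtain ⟨v, hv⟩ : ∃ v, φ v ≠ 0 := by
    by_contra hcon
    push Not at hcon
    exact hφ (LinearMap.ext hcon)
  have hsc : ∀ k ∈ K, k = ((φ v)⁻¹ * φ (k *ᵥ v)) • (1 : Matrix (Fin n) (Fin n) F) := by
    intro k hk
    by_contra hne
    have h1 : k - ((φ v)⁻¹ * φ (k *ᵥ v)) • (1 : Matrix (Fin n) (Fin n) F) ≠ 0 := sub_ne_zero.2 hne
    apply ha
    apply hinj _ (K.sub_mem hk (K.smul_mem K.one_mem _)) h1
    rw [Matrix.sub_mulVec, Matrix.smul_mulVec, Matrix.one_mulVec, mul_smul, hcomm k hk v, smul_smul,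
      inv_mul_cancel₀ hv, one_smul, sub_self]
  have h1 : Module.finrank F K ≤ 1 := by
    refine finrank_le_one (⟨1, K.one_mem⟩ : K) fun w => ⟨(φ v)⁻¹ * φ (w.1 *ᵥ v), ?_⟩
    ext1
    exact (hsc w.1 w.2).symm
  rw [hK.finrank_eq] at h1
  exact absurd hr.one_lt (by omega)

/-- class 2, monomial groups -/
theorem IsTv.not_mono {t : GL (Fin n) F} (ht : IsTv t) (h2 : (2 : F) ≠ 0) {s : ℕ}
    {D : Fin s → Submodule F (Fin n → F)} (hD : IsMDecomposition 1 D) (h : t ∈ decompositionStabilizer D) : False := by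
  obtain ⟨a, φ, ha, hφ, hφa, ht⟩ := ht
  obtain ⟨σ, hσ⟩ := h
  have hstab : ∀ i, ∀ v ∈ D i, v + φ v • a ∈ D (σ i) := by
    intro i v hv
    rw [← hσ i, ← ht]
    exact ⟨v, hv, Matrix.toLin'_apply _ _⟩
  have hdisj : ∀ i j, i ≠ j → ∀ v, v ∈ D i → v ∈ D j → v = 0 := by
    intro i j hij v hi hj
    have := hD.indep.pairwiseDisjoint hij
    exact (Submodule.disjoint_def.1 this) v hi hj
  -- all lines are stable
  have hfix : ∀ i, σ i = i := by
    intro i
    by_contra hne
    obtain ⟨v, hv⟩ : ∃ v : D i, v ≠ 0 := by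
      have h1 := hD.finrank_eq i
      have : Nontrivial (D i) := Module.nontrivial_of_finrank_pos (R := F) (by omega)
      exact exists_ne 0
    have hv0 : (v : Fin n → F) ≠ 0 := fun h => hv (Subtype.ext h)
    have h1 := hstab i v v.2
    have hφv : φ v ≠ 0 := by
      intro h0
      rw [h0, zero_smul, add_zero] at h1
      exact hv0 (hdisj i (σ i) (Ne.symm hne) _ v.2 h1)
    set w : Fin n → F := v + φ v • a with hw
    have hφw : φ w = φ v := by rw [hw, map_add, map_smul, hφa, smul_zero, add_zero]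
    have h3 := hstab (σ i) w h1
    rw [hφw] at h3
    have h4 : w + φ v • a = (2 : F) • w - (v : Fin n → F) := by
      rw [hw, two_smul]; abel
    rw [h4] at h3
    by_cases hl : σ (σ i) = i
    · rw [hl] at h3
      have h5 : (2 : F) • w ∈ D i := by
        have := (D i).add_mem h3 v.2
        rwa [sub_add_cancel] at this
      have h6 : w ∈ D i := by
        have := (D i).smul_mem (2 : F)⁻¹ h5
        rwa [smul_smul, inv_mul_cancel₀ h2, one_smul] at this
      have h7 := hdisj i (σ i) (Ne.symm hne) _ h6 h1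
      rw [h7, map_zero] at hφw
      exact hφv hφw.symm
    · have h5 : σ (σ i) ≠ σ i := fun h => hne (σ.injective h)
      have h6 : (2 : F) • w - (v : Fin n → F) ∈ ⨆ j ≠ σ (σ i), D j :=
        Submodule.sub_mem _
          (Submodule.smul_mem _ _ ((le_iSup₂_of_le (f := fun j (_ : j ≠ σ (σ i)) => D j) (σ i) (Ne.symm h5) le_rfl) h1))
          ((le_iSup₂_of_le (f := fun j (_ : j ≠ σ (σ i)) => D j) i (Ne.symm hl) le_rfl) v.2)
      have h7 := (Submodule.disjoint_def.1 (hD.indep (σ (σ i)))) _ h3 h6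
      have h8 : (v : Fin n → F) = (2 : F) • w := (sub_eq_zero.1 h7).symm
      have h9 : (v : Fin n → F) ∈ D (σ i) := by rw [h8]; exact (D (σ i)).smul_mem _ h1
      exact hv0 (hdisj i (σ i) (Ne.symm hne) _ v.2 h9)
  apply hφ
  have hall : ∀ i, ∀ v ∈ D i, φ v = 0 := by
    intro i v hv
    by_contra hφv
    have h1 := hstab i v hv
    rw [hfix i] at h1
    have h3 : a ∈ D i := by
      have := (D i).smul_mem (φ v)⁻¹ ((D i).sub_mem h1 hv)
      rwa [add_sub_cancel_left, smul_smul, inv_mul_cancel₀ hφv, one_smul] at this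
    obtain ⟨w, hw⟩ := finrank_eq_one_iff'.1 (hD.finrank_eq i)
    obtain ⟨c, hc⟩ := hw.2 ⟨a, h3⟩
    obtain ⟨d, hd⟩ := hw.2 ⟨v, hv⟩
    have hc' : c • (w : Fin n → F) = a := congrArg Subtype.val hc
    have hd' : d • (w : Fin n → F) = v := congrArg Subtype.val hd
    have hc0 : c ≠ 0 := by
      rintro rfl
      rw [zero_smul] at hc'
      exact ha hc'.symm
    apply hφv
    have h4 : φ (w : Fin n → F) = 0 := by
      have h5 := hφa
      rw [← hc', map_smul, smul_eq_mul] at h5
      exact (mul_eq_zero.1 h5).resolve_left hc0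
    rw [← hd', map_smul, h4, smul_zero]
  have hker : iSup D ≤ LinearMap.ker φ := iSup_le fun i v hv => LinearMap.mem_ker.2 (hall i v hv)
  rw [hD.iSup_eq_top] at hker
  exact LinearMap.ext fun v => LinearMap.mem_ker.1 (hker (Submodule.mem_top : v ∈ ⊤))

end Cfsg.Agent.H683.OddM
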