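import Mathlib
import Cfsg.Agent.H683.OddM.Tv
import Cfsg.Agent.H262.ElTransv

/-!
# S4785: transvections and elements `(J_3, 1^(n-3))` are real in `PSL_n(q)`, `n ≥ 3`, `q` odd (helper683)
-/

set_option autoImplicit false

namespace Cfsg.Agent.H683.OddM

open Matrix Cfsg Cfsg.Geo Cfsg.Agent.H304.PslT Cfsg.Agent.H453.OddM

variable {F : Type*} [Field F] {n : ℕ}

theorem isTv_of {t : GL (Fin n) F} (ht : H262.El.IsTv t) : IsTv t := by
  obtain ⟨u, w, hu, hw, huw, h⟩ := ht
  refine ⟨u, H262.El.dp w, hu, ?_, huw, fun v => H918.IsRankOneElt.mulVec h v⟩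
  intro h0
  apply hw
  funext i
  have := congrArg (fun f : (Fin n → F) →ₗ[F] F => f (Pi.single i 1)) h0
  simpa using this

/-- the diagonal involution -/
def dg (i k : Fin n) : Matrix (Fin n) (Fin n) F := Matrix.diagonal fun l => if l = i ∨ l = k then -1 else 1

theorem det_dg {i k : Fin n} (h : i ≠ k) : (dg i k : Matrix (Fin n) (Fin n) F).det = 1 := by
  classical
  rw [dg, Matrix.det_diagonal, Finset.prod_ite]
  have h1 : (Finset.univ.filter fun l => l = i ∨ l = k) = {i, k} := by
    ext l; simp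
  rw [h1]
  simp [h]

theorem dg_mul_self (i k : Fin n) : (dg i k : Matrix (Fin n) (Fin n) F) * dg i k = 1 := by
  rw [dg, Matrix.diagonal_mul_diagonal, ← Matrix.diagonal_one]
  congr 1
  funext l
  split_ifs <;> simp

/-- a diagonal involution inverting `X` makes it real -/
theorem isReal_sl {t d : Matrix.SpecialLinearGroup (Fin n) F} (hdd : d * d = 1)
    (h : (d : Matrix (Fin n) (Fin n) F) * (t : Matrix (Fin n) (Fin n) F) * (d : Matrix (Fin n) (Fin n) F) *
      (t : Matrix (Fin n) (Fin n) F) = 1) : IsReal t := by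
  refine ⟨d, ?_⟩
  have h1 : d * t * d * t = 1 := Subtype.ext h
  rw [eq_inv_iff_mul_eq_one, ← eq_inv_of_mul_eq_one_left hdd]
  exact h1

/-- real transvections -/
theorem exists_tv (hn : 3 ≤ n) : ∃ t : Matrix.SpecialLinearGroup (Fin n) F,
    IsReal t ∧ H262.El.IsTv (Matrix.SpecialLinearGroup.toGL t) := by
  classical
  let i0 : Fin n := ⟨0, by omega⟩
  let i1 : Fin n := ⟨1, by omega⟩
  let i2 : Fin n := ⟨2, by omega⟩
  have h01 : i0 ≠ i1 := by simp [i0, i1]
  have h02 : i0 ≠ i2 := by simp [i0, i2]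
  have h12 : i1 ≠ i2 := by simp [i1, i2]
  let t : Matrix.SpecialLinearGroup (Fin n) F := ⟨Matrix.transvection i0 i1 1, Matrix.det_transvection_of_ne i0 i1 h01 1⟩
  let d : Matrix.SpecialLinearGroup (Fin n) F := ⟨dg i0 i2, det_dg h02⟩
  have hdd : d * d = 1 := Subtype.ext (dg_mul_self i0 i2)
  have h1 : (dg i0 i2 : Matrix (Fin n) (Fin n) F) * Matrix.transvection i0 i1 (1 : F) * (dg i0 i2 : Matrix (Fin n) (Fin n) F) =
      Matrix.transvection i0 i1 (-1 : F) := by
    rw [Matrix.transvection, Matrix.transvection, mul_add, add_mul, mul_one, dg_mul_self]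
    congr 1
    ext a b
    rw [dg, Matrix.mul_diagonal, Matrix.diagonal_mul, Matrix.single_apply, Matrix.single_apply]
    by_cases h : i0 = a ∧ i1 = b
    · obtain ⟨rfl, rfl⟩ := h
      simp [h01.symm, h12]
    · simp [h]
  have h2 : (dg i0 i2 : Matrix (Fin n) (Fin n) F) * Matrix.transvection i0 i1 (1 : F) * (dg i0 i2 : Matrix (Fin n) (Fin n) F) *
      Matrix.transvection i0 i1 (1 : F) = 1 := by
    rw [h1, Matrix.transvection_mul_transvection_same _ _ h01, neg_add_cancel, Matrix.transvection_zero]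
  refine ⟨t, isReal_sl hdd h2, Pi.single i0 1, Pi.single i1 1, ?_, ?_, ?_, ?_⟩
  · exact fun h => one_ne_zero (by simpa using congrFun h i0 : (1 : F) = 0)
  · exact fun h => one_ne_zero (by simpa using congrFun h i1 : (1 : F) = 0)
  · simp [h01.symm]
  · change Matrix.transvection i0 i1 1 = _
    rw [Matrix.transvection]
    congr 1
    ext a b
    rw [Matrix.single_apply, Matrix.vecMulVec_apply, Pi.single_apply, Pi.single_apply]
    by_cases h1 : a = i0
    · by_cases h2 : b = i1
      · simp [h1, h2]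
      · simp [h2, Ne.symm h2]
    · simp [h1, Ne.symm h1]

/-- real elements of type `(J_3, 1^(n-3))` -/
theorem exists_j (hn : 3 ≤ n) (h2 : (2 : F) ≠ 0) : ∃ t : Matrix.SpecialLinearGroup (Fin n) F,
    IsReal t ∧ IsJ (Matrix.SpecialLinearGroup.toGL t) := by
  classical
  let i0 : Fin n := ⟨0, by omega⟩
  let i1 : Fin n := ⟨1, by omega⟩
  let i2 : Fin n := ⟨2, by omega⟩
  have h01 : i0 ≠ i1 := by simp [i0, i1]
  have h02 : i0 ≠ i2 := by simp [i0, i2]
  have h12 : i1 ≠ i2 := by simp [i1, i2]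
  let N : Matrix (Fin n) (Fin n) F := Matrix.single i0 i1 1 + Matrix.single i1 i2 1
  have hN2 : N * N = Matrix.single i0 i2 1 := by
    simp only [N, mul_add, add_mul]
    rw [Matrix.single_mul_single_of_ne _ _ _ _ h01.symm, Matrix.single_mul_single_same,
      Matrix.single_mul_single_of_ne _ _ _ _ h02.symm, Matrix.single_mul_single_of_ne _ _ _ _ h12.symm]
    simp
  have hN3 : N * N * N = 0 := by
    rw [hN2]
    simp only [N, mul_add]
    rw [Matrix.single_mul_single_of_ne _ _ _ _ h02.symm, Matrix.single_mul_single_of_ne _ _ _ _ h12.symm, add_zero]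
  let X : Matrix (Fin n) (Fin n) F := 1 + N + (2⁻¹ : F) • (N * N)
  let Y : Matrix (Fin n) (Fin n) F := 1 - N + (2⁻¹ : F) • (N * N)
  have hYX : Y * X = 1 := by
    have e1 : N * (N * N) = 0 := by rw [← mul_assoc, hN3]
    have e2 : N * N * (N * N) = 0 := by rw [← mul_assoc, hN3, zero_mul]
    have e3 : (2⁻¹ : F) • (N * N) + (2⁻¹ : F) • (N * N) = N * N := by
      rw [← add_smul, ← two_mul, mul_inv_cancel₀ h2, one_smul]
    simp only [X, Y, mul_add, add_mul, sub_mul, one_mul, mul_one, Matrix.smul_mul, Matrix.mul_smul, e1, e2, hN3,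
      smul_zero, add_zero, sub_zero]
    rw [← sub_eq_zero]
    have : (1 : Matrix (Fin n) (Fin n) F) - N + (2⁻¹ : F) • (N * N) + (N - N * N) + (2⁻¹ : F) • (N * N) - 1 =
      ((2⁻¹ : F) • (N * N) + (2⁻¹ : F) • (N * N)) - N * N := by abel
    first
      | rw [this, e3, sub_self]
      | (have h5 := e3; rw [← sub_eq_zero] at h5; rw [← h5]; abel)
  have hX : X = Matrix.transvection i0 i1 1 * Matrix.transvection i1 i2 1 * Matrix.transvection i0 i2 (-(2⁻¹ : F)) := by
    have e3 : (Matrix.single i0 i2 1 : Matrix (Fin n) (Fin n) F) + Matrix.single i0 i2 (-(2⁻¹ : F)) =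
        (2⁻¹ : F) • (Matrix.single i0 i2 1) := by
      rw [← Matrix.single_add, Matrix.smul_single]
      congr 1
      rw [smul_eq_mul, mul_one]
      field_simp
      ring
    simp only [X, Matrix.transvection, mul_add, add_mul, one_mul, mul_one, hN2]
    rw [Matrix.single_mul_single_same, Matrix.single_mul_single_of_ne _ _ _ _ h01.symm,
      Matrix.single_mul_single_of_ne _ _ _ _ h02.symm, Matrix.single_mul_single_of_ne _ _ _ _ h02.symm, ← e3]
    simp only [N, mul_one, add_zero]
    abel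
  have hdet : X.det = 1 := by
    rw [hX, Matrix.det_mul, Matrix.det_mul, Matrix.det_transvection_of_ne _ _ h01, Matrix.det_transvection_of_ne _ _ h12,
      Matrix.det_transvection_of_ne _ _ h02]
    simp
  let t : Matrix.SpecialLinearGroup (Fin n) F := ⟨X, hdet⟩
  let d : Matrix.SpecialLinearGroup (Fin n) F := ⟨dg i0 i2, det_dg h02⟩
  have hdd : d * d = 1 := Subtype.ext (dg_mul_self i0 i2)
  have hdN : (dg i0 i2 : Matrix (Fin n) (Fin n) F) * N * dg i0 i2 = -N := by
    ext a b
    simp only [N]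
    rw [dg, Matrix.mul_diagonal, Matrix.diagonal_mul, Matrix.neg_apply, Matrix.add_apply, Matrix.single_apply,
      Matrix.single_apply]
    by_cases h : i0 = a ∧ i1 = b
    · obtain ⟨rfl, rfl⟩ := h
      simp [h01.symm, h12]
    · by_cases h' : i1 = a ∧ i2 = b
      · obtain ⟨rfl, rfl⟩ := h'
        simp [h01.symm, h12, h02.symm]
      · simp [h, h']
  have hdX : (dg i0 i2 : Matrix (Fin n) (Fin n) F) * X * dg i0 i2 = Y := by
    have e1 : (dg i0 i2 : Matrix (Fin n) (Fin n) F) * (N * N) * dg i0 i2 = N * N := by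
      calc (dg i0 i2 : Matrix (Fin n) (Fin n) F) * (N * N) * dg i0 i2
          = (dg i0 i2 * N * dg i0 i2) * (dg i0 i2 * N * dg i0 i2) := by
            simp only [mul_assoc]
            rw [← mul_assoc (dg i0 i2) (dg i0 i2), dg_mul_self, one_mul]
        _ = N * N := by rw [hdN, neg_mul_neg]
    simp only [X, Y, mul_add, add_mul, mul_one, dg_mul_self, hdN, Matrix.mul_smul, Matrix.smul_mul, e1]
    abel
  have hrl : (dg i0 i2 : Matrix (Fin n) (Fin n) F) * X * (dg i0 i2 : Matrix (Fin n) (Fin n) F) * X = 1 := by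
    rw [hdX, hYX]
  refine ⟨t, isReal_sl hdd hrl, Matrix.toLin' (N + (2⁻¹ : F) • (N * N)), Pi.single i0 1, LinearMap.proj i2,
    ?_, ?_, ?_, ?_, ?_⟩
  · exact fun h => one_ne_zero (by simpa using congrFun h i0 : (1 : F) = 0)
  · intro h
    have := congrArg (fun f : (Fin n → F) →ₗ[F] F => f (Pi.single i2 1)) h
    simp at this
  · rw [Matrix.toLin'_apply, hN2]
    simp only [N, Matrix.add_mulVec, Matrix.smul_mulVec]
    rw [Matrix.mulVec_single_one, Matrix.mulVec_single_one, Matrix.mulVec_single_one]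
    ext a
    simp [Matrix.single_apply, h01.symm, h12.symm, h02.symm]
  · intro v
    rw [← LinearMap.comp_apply, ← Matrix.toLin'_mul, Matrix.toLin'_apply, LinearMap.proj_apply]
    have e1 : N * (N * N) = 0 := by rw [← mul_assoc, hN3]
    have e2 : N * N * (N * N) = 0 := by rw [← mul_assoc, hN3, zero_mul]
    have e4 : (N + (2⁻¹ : F) • (N * N)) * (N + (2⁻¹ : F) • (N * N)) = Matrix.single i0 i2 1 := by
      simp only [mul_add, add_mul, Matrix.smul_mul, Matrix.mul_smul, e1, e2, hN3, smul_zero, add_zero]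
      exact hN2
    rw [e4]
    ext a
    by_cases h : a = i0
    · subst h
      simp [Matrix.mulVec, dotProduct, Matrix.single_apply]
    · simp [Matrix.mulVec, dotProduct, Matrix.single_apply, h, Ne.symm h]
  · intro v
    rw [Matrix.toLin'_apply]
    change X *ᵥ v = _
    simp only [X]
    rw [add_assoc, Matrix.add_mulVec, Matrix.one_mulVec]

/-- real classes of `SL_n` are met by `pre M` -/
theorem exists_mem_pre {M : Subgroup (Matrix.ProjectiveSpecialLinearGroup (Fin n) F)} (hc : Cov _ M)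
    {t : Matrix.SpecialLinearGroup (Fin n) F} (ht : IsReal t) :
    ∃ h : GL (Fin n) F, h * Matrix.SpecialLinearGroup.toGL t * h⁻¹ ∈ pre M := by
  obtain ⟨g, hg⟩ := hc.2 _ (ht.map (pr n F))
  obtain ⟨h, rfl⟩ := QuotientGroup.mk'_surjective _ g
  refine ⟨Matrix.SpecialLinearGroup.toGL h, h * t * h⁻¹, ?_, by simp⟩
  change pr n F (h * t * h⁻¹) ∈ M
  rw [map_mul, map_mul, map_inv]
  exact hg

end Cfsg.Agent.H683.OddM
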