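import Mathlib
import Cfsg.Agent.H304.GeoL
import Cfsg.Agent.H683.OddM.Real3

/-!
# S4785, GEO-L: the geometric maximal subgroups of `PSL_n(q)`, `n ≥ 3`, `q` odd, which meet all real classes (helper683)

`geo_psl` : `M` maximal in `PSL_n(q)`, `Cov _ M`, and the primes `Ppd q e u`, `e` even, are real: then `pre M` is in the
residual class, or `n` is odd and `M` stabilises a line or a hyperplane.
-/

set_option autoImplicit false

namespace Cfsg.Agent.H683.OddM

open Matrix Cfsg Cfsg.Geo Cfsg.Agent.H728.DghpNum Cfsg.Agent.H304.Ppd Cfsg.Agent.H304.PslT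
  Cfsg.Agent.H251.GeoCard Cfsg.Agent.H304.GeoL Cfsg.Agent.H453.OddM

variable {F : Type*} [Field F] [Fintype F] {n : ℕ}

/-- the data extracted from `Cov` -/
structure Dat (M : Subgroup (Matrix.ProjectiveSpecialLinearGroup (Fin n) F)) : Prop where
  hn : 3 ≤ n
  odd : Odd (Fintype.card F)
  ppd : ∀ e u, Ppd (Fintype.card F) e u → Even e → 2 ≤ e → e ≤ n → u ∣ Nat.card M
  tv : ∃ t ∈ pre M, H262.El.IsTv t
  jj : ∃ t ∈ pre M, IsJ t

theorem Dat.two_ne {M : Subgroup (Matrix.ProjectiveSpecialLinearGroup (Fin n) F)} (h : Dat M) : (2 : F) ≠ 0 := by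
  obtain ⟨p, hp⟩ := CharP.exists F
  have hpp : p.Prime := CharP.char_is_prime F p
  obtain ⟨k, -, hk⟩ := FiniteField.card F p
  have hp2 : p ≠ 2 := by
    rintro rfl
    have h1 := h.odd
    rw [hk] at h1
    exact absurd h1 (Nat.not_odd_iff_even.2 (Nat.even_pow.2 ⟨even_two, k.ne_zero⟩))
  intro h2
  have h3 : ((2 : ℕ) : F) = 0 := by exact_mod_cast h2
  rw [CharP.cast_eq_zero_iff F p] at h3
  exact hp2 ((Nat.prime_dvd_prime_iff_eq hpp Nat.prime_two).1 h3)

theorem Dat.three_le {M : Subgroup (Matrix.ProjectiveSpecialLinearGroup (Fin n) F)} (h : Dat M) : 3 ≤ Fintype.card F := by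
  have h1 : 1 < Fintype.card F := Fintype.one_lt_card
  obtain ⟨c, hc⟩ := h.odd
  omega

/-- elements of real prime order -/
theorem Dat.elt {M : Subgroup (Matrix.ProjectiveSpecialLinearGroup (Fin n) F)} (h : Dat M) {e u : ℕ}
    (hP : Ppd (Fintype.card F) e u) (he : Even e) (he2 : 2 ≤ e) (hen : e ≤ n) :
    ∃ x ∈ pre M, orderOf x = u := by
  obtain ⟨x, h1, h2⟩ := exists_of_dvd hP.prime (h.ppd e u hP he he2 hen)
  exact ⟨x, h2, h1⟩

theorem Dat.dvd {M : Subgroup (Matrix.ProjectiveSpecialLinearGroup (Fin n) F)} (h : Dat M) {e u : ℕ}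
    (hP : Ppd (Fintype.card F) e u) (he : Even e) (he2 : 2 ≤ e) (hen : e ≤ n) {X : Subgroup (GL (Fin n) F)}
    (hX : pre M ≤ X) : u ∣ Nat.card X := by
  obtain ⟨x, hx, hxu⟩ := h.elt hP he he2 hen
  rw [← hxu, ← Subgroup.orderOf_mk x (hX hx)]
  exact _root_.orderOf_dvd_natCard _

/-- the largest even exponent -/
theorem exists_even (hn : 3 ≤ n) : ∃ e, Even e ∧ 2 ≤ e ∧ e ≤ n ∧ n ≤ e + 1 ∧ (4 ≤ n → 4 ≤ e) ∧ (Even n → e = n) := by
  rcases Nat.even_or_odd n with h | h
  · exact ⟨n, h, by omega, le_rfl, by omega, fun h => h, fun _ => rfl⟩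
  · obtain ⟨c, hc⟩ := h
    exact ⟨n - 1, ⟨c, by omega⟩, by omega, by omega, by omega, fun h4 => by omega, fun ⟨d, hd⟩ => by omega⟩

theorem Dat.good {M : Subgroup (Matrix.ProjectiveSpecialLinearGroup (Fin n) F)} (h : Dat M) (h4 : 4 ≤ n) :
    ∃ e u : ℕ, Ppd (Fintype.card F) e u ∧ Even e ∧ 2 ≤ e ∧ e ≤ n ∧ n ≤ e + 1 ∧ e < u ∧ (Even n → e = n) := by
  obtain ⟨e, h1, h2, h3, h4', h5, h6⟩ := exists_even h.hn
  have h7 := h5 h4
  have h8 := h.three_le
  obtain ⟨u, hu⟩ := exists_ppd (q := Fintype.card F) (e := e) (by omega) (by omega) (by omega)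
  exact ⟨e, u, hu, h1, h2, h3, h4', hu.lt, h6⟩

variable {M : Subgroup (Matrix.ProjectiveSpecialLinearGroup (Fin n) F)}

theorem Dat.class2 (h : Dat M) {t m : ℕ} {D : Fin t → Submodule F (Fin n → F)} (htm : t * m = n)
    (hD : IsMDecomposition m D) (hM : pre M ≤ decompositionStabilizer D) : False := by
  by_cases hm1 : m = 1
  · subst hm1
    obtain ⟨x, hx, hxt⟩ := h.tv
    exact (isTv_of hxt).not_mono h.two_ne hD (hM hx)
  have ht := hD.two_le
  have hm := hD.pos
  have h4 : 2 * 2 ≤ n := by rw [← htm]; exact Nat.mul_le_mul ht (show 2 ≤ m by omega)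
  obtain ⟨e, u, hP, h1, h2, h3, h5, h6, -⟩ := h.good (by omega)
  have hd := h.dvd hP h1 h2 h3 hM
  have hF : ¬ u ∣ Nat.card F := by rw [Nat.card_eq_fintype_card]; exact hP.ndvd
  rcases decomp hD hP.prime hF hd with h7 | h7
  · have : t * 2 ≤ n := by rw [← htm]; exact Nat.mul_le_mul_left t (by omega)
    omega
  · rw [Nat.card_eq_fintype_card] at h7
    have h8 := dvd_iff' hP h7
    have : 2 * m ≤ n := by rw [← htm]; exact Nat.mul_le_mul_right m ht
    omega

theorem Dat.class4 (h : Dat M) {n₁ n₂ : ℕ} {e : Fin n ≃ Fin n₁ × Fin n₂} {P : GL (Fin n) F} (h1 : 2 ≤ n₁)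
    (h12 : n₁ < n₂) (hnn : n₁ * n₂ = n) (hM : pre M ≤ tensorProductSubgroup n₁ n₂ e P) : False := by
  have h4 : 2 * 2 ≤ n := by rw [← hnn]; exact Nat.mul_le_mul h1 (show 2 ≤ n₂ by omega)
  obtain ⟨e, u, hP, k1, k2, k3, k5, k6, -⟩ := h.good (by omega)
  have hd := h.dvd hP k1 k2 k3 hM
  have hF : ¬ u ∣ Nat.card F := by rw [Nat.card_eq_fintype_card]; exact hP.ndvd
  have h6 := tensor _ _ hP.prime hF hd
  rw [Nat.card_eq_fintype_card] at h6
  have h7 := dvd_iff' hP h6
  rw [max_eq_right h12.le] at h7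
  have : 2 * n₂ ≤ n := by rw [← hnn]; exact Nat.mul_le_mul_right n₂ h1
  omega

theorem Dat.class7 (h : Dat M) {m t : ℕ} {e : Fin n ≃ (Fin t → Fin m)} {P : GL (Fin n) F} (hm : 3 ≤ m)
    (ht : 2 ≤ t) (hmt : m ^ t = n) (hM : pre M ≤ tensorWreathSubgroup m t e P) : False := by
  have h8 : m ^ 2 ≤ m ^ t := Nat.pow_le_pow_right (by omega) ht
  have h9 : 3 * m ≤ m ^ 2 := by rw [pow_two]; exact Nat.mul_le_mul_right m hm
  obtain ⟨e, u, hP, k1, k2, k3, k5, k6, -⟩ := h.good (by omega)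
  have hd := h.dvd hP k1 k2 k3 hM
  have hF : ¬ u ∣ Nat.card F := by rw [Nat.card_eq_fintype_card]; exact hP.ndvd
  rcases wreath _ _ hP.prime hF hd with h6 | h6
  · have : t < m ^ t := Nat.lt_pow_self (by omega)
    omega
  · rw [Nat.card_eq_fintype_card] at h6
    have h7 := dvd_iff' hP h6
    omega

theorem Dat.class3 (h : Dat M) {r : ℕ} {K : Subalgebra F (Matrix (Fin n) (Fin n) F)} (hr : r.Prime)
    (hK : IsFieldSubalgebra r K) (hM : pre M ≤ subalgebraNormalizer K) : False := by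
  obtain ⟨x, hx, hxt⟩ := h.tv
  exact (isTv_of hxt).not_ext h.hn hr hK (hM hx)

theorem Dat.class5 (h : Dat M) {F₀ : Subfield F} {r : ℕ} {P : GL (Fin n) F} (hr : r.Prime)
    (hF₀ : Fintype.card F = Nat.card F₀ ^ r) (hM : pre M ≤ subfieldSubgroup F₀ P) : False := by
  have hq0 : 3 ≤ Nat.card F₀ := by
    have h1 : 1 < Nat.card F₀ := Finite.one_lt_card
    have h2 := h.odd
    rw [hF₀] at h2
    have h3 : Odd (Nat.card F₀) := by
      rcases Nat.even_or_odd (Nat.card F₀) with h4 | h4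
      · exact absurd h2 (Nat.not_odd_iff_even.2 (Nat.even_pow.2 ⟨h4, hr.ne_zero⟩))
      · exact h4
    obtain ⟨c, hc⟩ := h3
    omega
  have hr2 := hr.two_le
  obtain ⟨e, h1, h2, h3, h4, -, -⟩ := exists_even h.hn
  have hn := h.hn
  have hre : 2 * e ≤ r * e := Nat.mul_le_mul_right e hr2
  obtain ⟨u, hu⟩ := exists_ppd (q := Nat.card F₀) (e := r * e) (by omega) (by omega) (by omega)
  have hP : Ppd (Fintype.card F) e u := by
    have := hu.pow r hr.ne_zero
    rw [← hF₀, Nat.gcd_comm, Nat.gcd_mul_right_right, Nat.mul_div_cancel_left _ hr.pos] at this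
    exact this
  have hd := h.dvd hP h1 h2 h3 hM
  have hF : ¬ u ∣ Nat.card F := by rw [Nat.card_eq_fintype_card]; exact hP.ndvd
  rcases subfield hP.prime hF hd with h6 | h6
  · rw [Nat.card_eq_fintype_card] at h6
    have := (hP.dvd_iff 1).mp (by rwa [pow_one])
    exact absurd (Nat.le_of_dvd one_pos this) (by omega)
  · have h7 := dvd_iff' hu h6
    rw [Fintype.card_fin] at h7
    omega

/-- an abelian-by-scalars absolutely irreducible group, `n ≥ 4` -/
theorem Dat.class6_four (h : Dat M) (h4 : 4 ≤ n) {r k : ℕ} {R : Subgroup (GL (Fin n) F)}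
    (hR : IsLinearSymplecticTypeData r R) (ht : H920.IsType r k R) (hM : pre M ≤ subgroupNormalizer R) : False := by
  obtain ⟨x, hx, hxt⟩ := h.tv
  refine hxt.not_mem_subgroupNormalizer (by rwa [Fintype.card_fin]) hR.absIrred ?_ (hM hx)
  intro a ha b hb
  have h1 := H920.comm_of_type hR.symplecticType hR.absIrred ht a ha b hb
  obtain ⟨c, hc⟩ := (mem_scalars_iff _).1 h1
  refine ⟨(c : F), ?_⟩
  have h2 : a * b = (a * b * a⁻¹ * b⁻¹) * (b * a) := by group
  have h3 := congrArg Units.val h2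
  rw [Units.val_mul, Units.val_mul (a * b * a⁻¹ * b⁻¹), Units.val_mul b a] at h3
  rw [h3, hc, Matrix.smul_mul, Matrix.one_mul]

theorem Dat.class6 (h : Dat M) {r k p e : ℕ} {R : Subgroup (GL (Fin n) F)} (hR : IsLinearSymplecticTypeData r R)
    (hr : r.Prime) (hro : Odd r) (hk : 1 ≤ k) (hnk : n = r ^ k) (hrp : r ≠ p) (hmin : IsMinimalFieldFor r p e F)
    (hZ : Nat.card (Subgroup.center R) = r) (hc : Nat.card R = r ^ (1 + 2 * k))
    (hM : pre M ≤ subgroupNormalizer R) : False := by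
  by_cases h4 : 4 ≤ n
  · exact h.class6_four h4 hR (Or.inl ⟨hro, hZ, hc⟩) hM
  have hn := h.hn
  have hn3 : n = 3 := by omega
  have hr3 : r = 3 := by
    have h1 : r ∣ 3 := by
      rw [← hn3, hnk]
      exact dvd_pow_self r (by omega)
    exact (Nat.prime_dvd_prime_iff_eq hr Nat.prime_three).1 h1
  obtain ⟨hp, hcp, hcard, -, -⟩ := hmin
  haveI := Fact.mk hp
  haveI := hcp
  haveI : Nonempty (Fin n) := ⟨⟨0, by omega⟩⟩
  obtain ⟨x, hx, hxt⟩ := h.tv
  have hx1 : x ≠ 1 := by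
    rintro rfl
    obtain ⟨a, w, ha, hw, haw, h1⟩ := hxt
    rw [Units.val_one, left_eq_add] at h1
    obtain ⟨i, hi⟩ := Function.ne_iff.1 ha
    obtain ⟨j, hj⟩ := Function.ne_iff.1 hw
    have := congrFun (congrFun h1 i) j
    rw [Matrix.vecMulVec_apply, Matrix.zero_apply] at this
    rcases mul_eq_zero.1 this with h2 | h2
    · exact hi h2
    · exact hj h2
  have hxp : orderOf x = p := orderOf_eq_prime hxt.pow_char hx1
  have hd : p ∣ Nat.card (subgroupNormalizer R) := by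
    rw [← hxp, ← Subgroup.orderOf_mk x (hM hx)]
    exact _root_.orderOf_dvd_natCard _
  have hp2 : p ≠ 2 := by
    rintro rfl
    exact h.two_ne (by exact_mod_cast CharP.cast_eq_zero F 2)
  rcases symplecticType hR.symplecticType hR.absIrred (Or.inl ⟨hro, hZ, hc⟩) hk hp hd with h1 | h1 | h1
  · exact hrp h1.symm
  · rw [Nat.card_eq_fintype_card, hcard] at h1
    have he0 : e ≠ 0 := by
      rintro rfl
      have h5 := h.three_le
      rw [hcard, pow_zero] at h5
      omega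
    have h3 : p ∣ p ^ e := dvd_pow_self p he0
    have h5 : p ∣ 1 := by
      have h6 := Nat.dvd_sub h3 h1
      rwa [Nat.sub_sub_self (Nat.one_le_pow _ _ hp.pos)] at h6
    exact hp.one_lt.ne' (Nat.dvd_one.1 h5)
  · rw [← hnk, hn3] at h1
    have h5 := hp.two_le
    have h6 : p = 4 := by omega
    rw [h6] at hp
    exact absurd hp (by norm_num)

theorem Dat.class8_symp (h : Dat M) {f : (Fin n → F) → (Fin n → F) → F} (hf : IsSymplecticForm f)
    (hM : pre M ≤ similarityGroup f) : False := by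
  obtain ⟨x, hx, hxj⟩ := h.jj
  exact hxj.not_symp hf (hM hx)

theorem Dat.class8_quad (h : Dat M) {Q : (Fin n → F) → F} (hQ : IsNondegenerateQuadraticForm Q)
    (hM : pre M ≤ quadSimilarityGroup Q) : False := by
  obtain ⟨x, hx, hxt⟩ := h.tv
  exact (isTv_of hxt).not_quad h.two_ne hQ (hM hx)

theorem Dat.class8_unit (h : Dat M) {σ : F ≃+* F} {f : (Fin n → F) → (Fin n → F) → F} (hf : IsUnitaryForm σ f)
    (hM : pre M ≤ similarityGroup f) : False := by
  have hn := h.hn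
  haveI : Nonempty (Fin n) := ⟨⟨0, by omega⟩⟩
  obtain ⟨p, k, hp, hpF, hF, hσ⟩ := exists_frobenius hf.ne_refl hf.involutive
  haveI : Fact p.Prime := ⟨hp⟩
  obtain ⟨e, heo, he2, hen, hne, -, -⟩ := exists_even hn
  have hq0 : 3 ≤ p ^ k := by
    have h1 : 1 < Fintype.card F := Fintype.one_lt_card
    have h2 := h.odd
    have hk0 : k ≠ 0 := by
      rintro rfl
      rw [hF] at h1; norm_num at h1
    have h3 : p ^ k ≠ 2 := by
      intro h4
      rw [hF, h4] at h2
      exact absurd h2 (by decide)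
    have h5 : 2 ≤ p ^ k := hp.two_le.trans (Nat.le_self_pow hk0 p)
    omega
  obtain ⟨u, hP⟩ := exists_ppd (q := p ^ k) (e := 2 * e) (by omega) (by omega) (by omega)
  have hPq : Ppd (Fintype.card F) e u := by
    rw [hF]
    have := hP.pow 2 two_ne_zero
    rwa [Nat.gcd_comm, Nat.gcd_mul_right_right, Nat.mul_div_cancel_left _ (by norm_num)] at this
  obtain ⟨x, hx, hxu⟩ := h.elt hPq heo he2 hen
  have h1 := odd_of_unitary hF hP he2 (by rw [Fintype.card_fin]; omega) hxu hσ hf (hM hx)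
  exact (Nat.not_even_iff_odd.mpr h1) heo

theorem Dat.class1 (h : Dat M) {W : Submodule F (Fin n → F)} (hW0 : W ≠ ⊥) (hW1 : W ≠ ⊤)
    (hM : pre M ≤ subspaceStabilizer W) :
    Odd n ∧ (Module.finrank F W = 1 ∨ Module.finrank F W = n - 1) := by
  have hn := h.hn
  have h1 : 0 < Module.finrank F W := Nat.pos_of_ne_zero fun h => hW0 (Submodule.finrank_eq_zero.mp h)
  have h2 : Module.finrank F W < n := by
    have := Submodule.finrank_lt hW1
    rwa [Module.finrank_fintype_fun_eq_card, Fintype.card_fin] at this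
  by_cases h4 : 4 ≤ n
  · obtain ⟨e, u, hP, k1, k2, k3, k5, k6, k7⟩ := h.good h4
    obtain ⟨x, hx, hxu⟩ := h.elt hP k1 k2 k3
    have h5 := le_finrank_of_mem_stabilizer hP hxu (mem_of_subspaceStabilizer (hM hx))
    rw [Fintype.card_fin] at h5
    rcases Nat.even_or_odd n with h6 | h6
    · have h7 := k7 h6
      omega
    · refine ⟨h6, ?_⟩
      have h8 : e ≠ n := by
        rintro rfl
        exact absurd k1 (Nat.not_even_iff_odd.2 h6)
      omega
  · have hn3 : n = 3 := by omega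
    refine ⟨by rw [hn3]; decide, by omega⟩

/-- **GEO-L**, from the data. -/
theorem Dat.geo (h : Dat M) (hM : IsCoatom M) : InLinearResidualClass (pre M) ∨
    (Odd n ∧ ∃ W : Submodule F (Fin n → F), (Module.finrank F W = 1 ∨ Module.finrank F W = n - 1) ∧
      pre M = subspaceStabilizer W ⊓ specialLinear (Fin n) F) := by
  rcases H915.sl_cases h.hn (isMaximalIn_pre hM) with ⟨W, h0, h1, he⟩ | ⟨t, m, D, htm, hD, -, -, he⟩ |
    ⟨r, K, hr, hrn, hK, he⟩ | ⟨n₁, n₂, e, P, h1, h2, h3, -, he⟩ | ⟨F₀, r, P, hr, hF, he⟩ |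
    ⟨r, k, p, e, R, hR, hr, hro, -, hk, hnk, hrp, hmin, hZ, hc, he⟩ | ⟨k, R, hR, hnk, -, -, hZ, hc, he⟩ |
    ⟨m, t, e, P, hm, ht, hmt, he⟩ | ⟨f, hf, hne, h4, he⟩ | ⟨σ, f, hf, he⟩ | ⟨-, Q, hQ, he⟩ | he
  · obtain ⟨h2, h3⟩ := h.class1 h0 h1 (he.le.trans inf_le_left)
    exact Or.inr ⟨h2, W, h3, he⟩
  · exact (h.class2 htm hD (he.le.trans inf_le_left)).elim
  · exact (h.class3 hr hK (he.le.trans inf_le_left)).elim
  · exact (h.class4 h1 h2 h3 (he.le.trans inf_le_left)).elim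
  · exact (h.class5 hr hF (he.le.trans inf_le_left)).elim
  · exact (h.class6 hR hr hro hk hnk hrp hmin hZ hc (he.le.trans inf_le_left)).elim
  · refine (h.class6_four ?_ hR (Or.inr ⟨rfl, hZ, hc⟩) (he.le.trans inf_le_left)).elim
    have hn := h.hn
    rcases k with _ | _ | k
    · rw [hnk] at hn; norm_num at hn
    · rw [hnk] at hn; norm_num at hn
    · rw [hnk]
      calc 4 = 2 ^ 2 := by norm_num
        _ ≤ 2 ^ (k + 1 + 1) := Nat.pow_le_pow_right (by norm_num) (by omega)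
  · exact (h.class7 hm ht hmt (he.le.trans inf_le_left)).elim
  · exact (h.class8_symp hf (he.le.trans inf_le_left)).elim
  · exact (h.class8_unit hf (he.le.trans inf_le_left)).elim
  · exact (h.class8_quad hQ (he.le.trans inf_le_left)).elim
  · exact Or.inl he

theorem dat (hn : 3 ≤ n) (hodd : Odd (Fintype.card F)) (hc : Cov _ M)
    (hreal : ∀ e u, Ppd (Fintype.card F) e u → Even e → 2 ≤ e → e ≤ n →
      RealP (Matrix.ProjectiveSpecialLinearGroup (Fin n) F) u) : Dat M := by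
  have h2 : (2 : F) ≠ 0 := by
    obtain ⟨p, hp⟩ := CharP.exists F
    have hpp : p.Prime := CharP.char_is_prime F p
    obtain ⟨k, -, hk⟩ := FiniteField.card F p
    have hp2 : p ≠ 2 := by
      rintro rfl
      rw [hk] at hodd
      exact absurd hodd (Nat.not_odd_iff_even.2 (Nat.even_pow.2 ⟨even_two, k.ne_zero⟩))
    intro h2
    have h3 : ((2 : ℕ) : F) = 0 := by exact_mod_cast h2
    rw [CharP.cast_eq_zero_iff F p] at h3
    exact hp2 ((Nat.prime_dvd_prime_iff_eq hpp Nat.prime_two).1 h3)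
  refine ⟨hn, hodd, fun e u hP he he2 hen => hc.dvd (hreal e u hP he he2 hen), ?_, ?_⟩
  · obtain ⟨t, hr, ht⟩ := exists_tv (F := F) hn
    obtain ⟨g, hg⟩ := exists_mem_pre hc hr
    exact ⟨_, hg, ht.conj g⟩
  · obtain ⟨t, hr, ht⟩ := exists_j (F := F) hn h2
    obtain ⟨g, hg⟩ := exists_mem_pre hc hr
    exact ⟨_, hg, ht.conj g⟩

/-- **GEO-L.** -/
theorem geo_psl (hn : 3 ≤ n) (hodd : Odd (Fintype.card F)) (hM : IsCoatom M) (hc : Cov _ M)
    (hreal : ∀ e u, Ppd (Fintype.card F) e u → Even e → 2 ≤ e → e ≤ n →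
      RealP (Matrix.ProjectiveSpecialLinearGroup (Fin n) F) u) :
    InLinearResidualClass (pre M) ∨
    (Odd n ∧ ∃ W : Submodule F (Fin n → F), (Module.finrank F W = 1 ∨ Module.finrank F W = n - 1) ∧
      pre M = subspaceStabilizer W ⊓ specialLinear (Fin n) F) :=
  (dat hn hodd hc hreal).geo hM

end Cfsg.Agent.H683.OddM
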