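import Mathlib
import Cfsg.Agent.H683.OddM.GeoL
import Cfsg.Agent.H660.OddM.RealLin

/-!
# S4785, GEO-L, without the hypothesis on the real primes (helper683; real primes: helper660)
-/

set_option autoImplicit false

namespace Cfsg.Agent.H683.OddM

open Matrix Cfsg Cfsg.Geo Cfsg.Agent.H728.DghpNum Cfsg.Agent.H304.PslT Cfsg.Agent.H453.OddM

variable {F : Type*} [Field F] [Fintype F] {n : ℕ}

theorem two_ne_zero_of_odd (hodd : Odd (Fintype.card F)) : (2 : F) ≠ 0 := by
  obtain ⟨p, hp⟩ := CharP.exists F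
  have hpp : p.Prime := CharP.char_is_prime F p
  obtain ⟨k, -, hk⟩ := FiniteField.card F p
  have hp2 : p ≠ 2 := by
    rintro rfl
    rw [hk] at hodd
    exact absurd hodd (Nat.not_odd_iff_even.2 (Nat.even_pow.2 ⟨even_two, k.ne_zero⟩))
  intro h2
  have h3 : ((2 : ℕ) : F) = 0 := by exact_mod_cast h2
  rw [CharP.cast_eq_zero_iff F p] at h3
  exact hp2 ((Nat.prime_dvd_prime_iff_eq hpp Nat.prime_two).1 h3)

/-- the real primes -/
theorem real_ppd (hodd : Odd (Fintype.card F)) {e u : ℕ} (hP : Ppd (Fintype.card F) e u) (he : Even e)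
    (he2 : 2 ≤ e) (hen : e ≤ n) : RealP (Matrix.ProjectiveSpecialLinearGroup (Fin n) F) u := by
  have hlt := hP.lt
  exact realP_psl_ord (two_ne_zero_of_odd hodd) hP.prime (by omega) hP.ord (by omega) (Or.inl ⟨he, hen⟩)

/-- **GEO-L.** -/
theorem geo_psl' (hn : 3 ≤ n) (hodd : Odd (Fintype.card F))
    {M : Subgroup (Matrix.ProjectiveSpecialLinearGroup (Fin n) F)} (hM : IsCoatom M) (hc : Cov _ M) :
    InLinearResidualClass (pre M) ∨
    (Odd n ∧ ∃ W : Submodule F (Fin n → F), (Module.finrank F W = 1 ∨ Module.finrank F W = n - 1) ∧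
      pre M = subspaceStabilizer W ⊓ specialLinear (Fin n) F) :=
  geo_psl hn hodd hM hc fun _ _ hP he he2 hen => real_ppd hodd hP he he2 hen

end Cfsg.Agent.H683.OddM
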